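import Mathlib
import Cfsg.Agent.Base
import Cfsg.Agent.Lib.FGS.FrobCount
import Cfsg.Agent.Lib.FGS.Count
import Cfsg.Agent.Lib.Core.GrpBasic
import Cfsg.Agent.Lib.Core.HallSZ

/-! Frobenius' conjecture: reduction to simple groups. -/

set_option autoImplicit false
open Subgroup H79

namespace H99.FN

universe u

section
variable {G : Type*} [Group G]

/-- Brauer's block of `x` with respect to `H`. -/
def blockCl (H : Subgroup G) (x : G) : Set G :=
  {y | ∃ h ∈ H, ∃ k ∈ invCore H x, y = h * (x * k) * h⁻¹}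

theorem ncard_blockCl [Finite G] (H : Subgroup G) (x : G) :
    (blockCl H x).ncard = Nat.card H := by
  classical
  let K := invCore H x
  let f : (H ⧸ K.subgroupOf H) × K → G := fun q =>
    (q.1.out : H) * (x * q.2) * ((q.1.out : H) : G)⁻¹
  have hf : Function.Injective f := by
    rintro ⟨q, k⟩ ⟨q', k'⟩ he
    simp only [f] at he
    set t : H := q.out
    set t' : H := q'.out
    have hmem : ((t' : G)⁻¹ * t) ∈ K := by
      set h : G := (t' : G)⁻¹ * t with hhdef
      have hhH : h ∈ H := H.mul_mem (H.inv_mem t'.2) t.2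
      have h1 : x⁻¹ * h * x⁻¹⁻¹ = k' * h * (k : G)⁻¹ := by
        have : h * (x * k) * h⁻¹ = x * k' := by
          calc h * (x * k) * h⁻¹ = (t' : G)⁻¹ * (t * (x * k) * (t : G)⁻¹) * t' := by
                rw [hhdef]; group
            _ = x * k' := by rw [he]; group
        calc x⁻¹ * h * x⁻¹⁻¹ = x⁻¹ * (h * (x * k) * h⁻¹) * h * (k : G)⁻¹ := by group
          _ = _ := by rw [this]; group
      have hL : K ⊔ zpowers h ≤ H := sup_le (invCore_le H x) (zpowers_le.mpr hhH)
      have hx : x⁻¹ ∈ normalizer ((K ⊔ zpowers h : Subgroup G) : Set G) := by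
        apply mem_normalizer_fintype
        have : K ⊔ zpowers h ≤ (K ⊔ zpowers h).comap (MulAut.conj x⁻¹).toMonoidHom := by
          refine sup_le (fun l hl => ?_) (zpowers_le.mpr ?_)
          · exact mem_sup_left
              (((mem_normalizer_iff.mp (inv_mem (mem_normalizer_invCore H x))) l).mp hl)
          · change x⁻¹ * h * x⁻¹⁻¹ ∈ K ⊔ zpowers h
            rw [h1]
            exact mul_mem (mul_mem (mem_sup_left k'.2) (mem_sup_right (mem_zpowers h)))
              (inv_mem (mem_sup_left k.2))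
        intro l hl
        exact this hl
      exact le_invCore hL (by simpa using inv_mem hx) (mem_sup_right (mem_zpowers h))
    have hq : q' = q := by
      rw [← QuotientGroup.out_eq' q', ← QuotientGroup.out_eq' q, QuotientGroup.eq]
      exact hmem
    subst hq
    have he' : (t : G) * (x * k) * (t : G)⁻¹ = t * (x * k') * (t : G)⁻¹ := he
    have : (k : G) = k' := by simpa using he'
    exact Prod.ext rfl (Subtype.ext this)
  have hr : Set.range f = blockCl H x := by
    ext y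
    constructor
    · rintro ⟨⟨q, k⟩, rfl⟩
      exact ⟨_, (q.out : H).2, k, k.2, rfl⟩
    · rintro ⟨h, hh, k, hk, rfl⟩
      let q : H ⧸ K.subgroupOf H := QuotientGroup.mk ⟨h, hh⟩
      have h1 : (((q.out : H) : G)⁻¹ * h) ∈ K := by
        have : (QuotientGroup.mk q.out : H ⧸ K.subgroupOf H) = QuotientGroup.mk ⟨h, hh⟩ :=
          QuotientGroup.out_eq' q
        exact mem_subgroupOf.mp (QuotientGroup.eq.mp this)
      set l := ((q.out : H) : G)⁻¹ * h with hl
      have h2 : x⁻¹ * l * x⁻¹⁻¹ ∈ K :=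
        ((mem_normalizer_iff.mp (inv_mem (mem_normalizer_invCore H x))) l).mp h1
      refine ⟨⟨q, ⟨x⁻¹ * l * x⁻¹⁻¹ * k * l⁻¹, mul_mem (mul_mem h2 hk) (inv_mem h1)⟩⟩, ?_⟩
      simp only [f, hl]
      group
  rw [← hr, Set.ncard_range_of_injective hf, Nat.card_prod,
    Nat.card_congr (subgroupOfEquivOfLe (invCore_le H x)).toEquiv.symm,
    ← card_eq_card_quotient_mul_card_subgroup]

/-- Frobenius' theorem in a set closed under conjugation and right multiplication by `H`. -/
theorem card_dvd_ncard_inter [Finite G] (H : Subgroup G) {n : ℕ} (hn : Nat.card H ∣ n)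
    (S : Set G) (hS : ∀ x ∈ S, ∀ h ∈ H, ∀ k ∈ H, h * (x * k) * h⁻¹ ∈ S) :
    Nat.card H ∣ {x ∈ S | x ^ n = 1}.ncard := by
  refine dvd_ncard_of_blocks _ (Set.toFinite _) _ (blockCl H)
    (fun x _ => ⟨1, H.one_mem, 1, one_mem _, by simp⟩) ?_ ?_
    (fun x _ => (ncard_blockCl H x).symm ▸ dvd_rfl)
  · rintro x hx y ⟨h, hh, k, hk, rfl⟩
    obtain ⟨g, hg, he⟩ := brauer_pow_conj (invCore H x) (mem_normalizer_invCore H x) hk
      ((card_dvd_of_le (invCore_le H x)).trans hn)
    refine ⟨hS x hx.1 h hh k (invCore_le H x hk), ?_⟩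
    rw [conj_pow, he, hx.2]
    group
  · rintro x - y ⟨h, hh, k, hk, rfl⟩
    apply Set.eq_of_subset_of_ncard_le _ (by rw [ncard_blockCl, ncard_blockCl]) (Set.toFinite _)
    rintro z ⟨h', hh', k', hk', rfl⟩
    have h1 := mem_invCore_conj hh hk'
    rw [invCore_mul hk] at h1
    refine ⟨h' * h, H.mul_mem hh' hh, k * (h⁻¹ * k' * h), mul_mem hk h1, by group⟩

/-- Frobenius' theorem in a coset of a normal subgroup. -/
theorem gcd_dvd_ncard_coset [Finite G] (N : Subgroup G) [hN : N.Normal] (n : ℕ) (y : G ⧸ N) :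
    Nat.gcd n (Nat.card N) ∣ {x ∈ {x : G | (x : G ⧸ N) = y} | x ^ n = 1}.ncard := by
  rw [Nat.dvd_iff_prime_pow_dvd_dvd]
  intro p k hp hpk
  have := Fact.mk hp
  obtain ⟨K, hK⟩ := Sylow.exists_subgroup_card_pow_prime (G := N) p
    (hpk.trans (Nat.gcd_dvd_right _ _))
  have h1 : Nat.card (K.map N.subtype) = p ^ k := by
    rw [card_subtype, hK]
  rw [← h1]
  refine card_dvd_ncard_inter _ (h1 ▸ hpk.trans (Nat.gcd_dvd_left _ _)) _ ?_
  intro x hx h hh k hk
  have hh' : ((h : G) : G ⧸ N) = 1 := (QuotientGroup.eq_one_iff _).2 (map_subtype_le K hh)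
  have hk' : ((k : G) : G ⧸ N) = 1 := (QuotientGroup.eq_one_iff _).2 (map_subtype_le K hk)
  have hx' : (x : G ⧸ N) = y := hx
  change ((h * (x * k) * h⁻¹ : G) : G ⧸ N) = y
  simp [hh', hk', hx']

theorem ncard_ge [Finite G] {n : ℕ} (hn : n ∣ Nat.card G) :
    n ≤ {x : G | x ^ n = 1}.ncard :=
  Nat.le_of_dvd ((Set.ncard_pos (Set.toFinite _)).2 ⟨1, one_pow n⟩) (H79.frobenius hn)

theorem quot_step [Finite G] (N : Subgroup G) [hN : N.Normal] {n : ℕ} (hn : n ∣ Nat.card G)
    (hle : {x : G | x ^ n = 1}.ncard ≤ n) :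
    n / Nat.gcd n (Nat.card N) ∣ Nat.card (G ⧸ N) ∧
    {y : G ⧸ N | y ^ (n / Nat.gcd n (Nat.card N)) = 1}.ncard ≤ n / Nat.gcd n (Nat.card N) ∧
    {y : N | y ^ Nat.gcd n (Nat.card N) = 1}.ncard ≤ Nat.gcd n (Nat.card N) := by
  have hcard : Nat.card G = Nat.card N * Nat.card (G ⧸ N) := by
    rw [Subgroup.card_eq_card_quotient_mul_card_subgroup N, mul_comm]
  set n1 := Nat.gcd n (Nat.card N) with hn1
  have hn10 : 0 < n1 := Nat.gcd_pos_of_pos_right _ Nat.card_pos
  have hcop : (n / n1).Coprime (Nat.card N / n1) := Nat.coprime_div_gcd_div_gcd hn10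
  set n2 := n / n1 with hn2
  set N2 := Nat.card N / n1 with hN2
  have e1 : n = n1 * n2 := (Nat.mul_div_cancel' (Nat.gcd_dvd_left _ _)).symm
  have e2 : Nat.card N = n1 * N2 := (Nat.mul_div_cancel' (Nat.gcd_dvd_right _ _)).symm
  have hd : n2 ∣ Nat.card (G ⧸ N) := by
    refine hcop.dvd_of_dvd_mul_left ?_
    refine Nat.dvd_of_mul_dvd_mul_left hn10 ?_
    rw [← e1, ← mul_assoc, ← e2, ← hcard]; exact hn
  -- lifting
  have hlift : ∀ y : G ⧸ N, y ^ n2 = 1 → ∃ x : G, (x : G ⧸ N) = y ∧ x ^ n = 1 := by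
    intro y hy
    obtain ⟨x, rfl⟩ := QuotientGroup.mk_surjective y
    obtain ⟨e, he1, he2⟩ := Nat.chineseRemainder hcop 1 0
    refine ⟨x ^ e, ?_, ?_⟩
    · rw [QuotientGroup.mk_pow]
      have := (pow_eq_pow_iff_modEq (x := (x : G ⧸ N)) (n := e) (m := 1)).2
        (he1.of_dvd (orderOf_dvd_of_pow_eq_one hy))
      simpa using this
    · have hz : x ^ n2 ∈ N := by
        rw [← QuotientGroup.eq_one_iff, QuotientGroup.mk_pow]; exact hy
      obtain ⟨c, hc⟩ : N2 ∣ e := (Nat.modEq_zero_iff_dvd).1 he2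
      have h3 : (x ^ n2) ^ Nat.card N = 1 := by
        have := pow_card_eq_one' (x := (⟨x ^ n2, hz⟩ : N))
        exact congrArg Subtype.val this
      calc (x ^ e) ^ n = ((x ^ n2) ^ Nat.card N) ^ c := by
            rw [← pow_mul, ← pow_mul, ← pow_mul, e2, hc]
            congr 1
            conv_lhs => rw [e1]
            ring
        _ = 1 := by rw [h3, one_pow]
  have hfib : ∀ y : G ⧸ N, y ^ n2 = 1 →
      n1 ≤ {x ∈ {x : G | (x : G ⧸ N) = y} | x ^ n = 1}.ncard := by
    intro y hy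
    refine Nat.le_of_dvd ((Set.ncard_pos (Set.toFinite _)).2 ?_) (gcd_dvd_ncard_coset N n y)
    obtain ⟨x, h1, h2⟩ := hlift y hy
    exact ⟨x, h1, h2⟩
  set T : Set (G ⧸ N) := {y : G ⧸ N | y ^ n2 = 1} with hT
  have hTge : n2 ≤ T.ncard := ncard_ge hd
  have h1T : (1 : G ⧸ N) ∈ T := one_pow n2
  -- split off the fibre over `1`
  set A : Set G := {x : G | x ^ n = 1 ∧ x ∈ N} with hA
  set B : Set G := {x : G | x ^ n = 1 ∧ (x : G ⧸ N) ∈ T \ {1}} with hB
  have hB1 : n1 * (T \ {1}).ncard ≤ B.ncard := by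
    refine H80.mul_ncard_le_of_fiber B _ (fun x => (x : G ⧸ N)) (fun x hx => hx.2) _ ?_
    intro y hy
    refine (hfib y hy.1).trans (Set.ncard_le_ncard ?_)
    intro x hx
    have hxy : (x : G ⧸ N) = y := hx.1
    exact ⟨⟨hx.2, hxy ▸ hy⟩, hxy⟩
  have hAB : A.ncard + B.ncard ≤ n := by
    rw [← Set.ncard_union_eq]
    · exact le_trans (Set.ncard_le_ncard (fun x hx => hx.elim (fun h => h.1) (fun h => h.1))) hle
    · rw [Set.disjoint_left]
      intro x hx hx'
      exact hx'.2.2 ((QuotientGroup.eq_one_iff _).2 hx.2)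
  have hA1 : {y : N | y ^ n1 = 1}.ncard = A.ncard := by
    rw [← Set.ncard_image_of_injective _ N.subtype_injective]
    congr 1
    ext x
    constructor
    · rintro ⟨y, hy, rfl⟩
      refine ⟨?_, y.2⟩
      have : y ^ n = 1 := by rw [e1, pow_mul, show y ^ n1 = 1 from hy, one_pow]
      exact congrArg Subtype.val this
    · rintro ⟨h1, h2⟩
      refine ⟨⟨x, h2⟩, ?_, rfl⟩
      change (⟨x, h2⟩ : N) ^ n1 = 1
      rw [hn1, pow_gcd_eq_one]
      exact ⟨Subtype.ext h1, pow_card_eq_one'⟩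
  have hA2 : n1 ≤ A.ncard := hA1 ▸ ncard_ge (Nat.gcd_dvd_right _ _)
  have hT1 : (T \ {1}).ncard + 1 = T.ncard := Set.ncard_diff_singleton_add_one h1T
  refine ⟨hd, ?_, ?_⟩
  · refine Nat.le_of_mul_le_mul_left ?_ hn10
    rw [← hT1, mul_add, mul_one, ← e1]
    omega
  · rw [hA1]
    have : n1 * n2 ≤ n1 * (T \ {1}).ncard + n1 := by
      rw [← Nat.mul_succ]; exact Nat.mul_le_mul_left _ (by omega)
    omega

end

/-- Frobenius' conjecture for one group. -/
def FrobProp (G : Type*) [Group G] : Prop :=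
  ∀ n : ℕ, n ∣ Nat.card G → {x : G | x ^ n = 1}.ncard ≤ n →
    ∃ H : Subgroup G, (H : Set G) = {x : G | x ^ n = 1}

/-- Every composition factor satisfies Frobenius' conjecture. -/
def CF (G : Type u) [Group G] : Prop :=
  ∀ H : Subgroup G, H.IsSubnormal → ∀ (X : Type u) [Group X] (f : H →* X),
    Function.Surjective f → IsSimpleGroup X → FrobProp X

theorem CF.sub {G : Type u} [Group G] (h : CF G) (N : Subgroup G) [hN : N.Normal] : CF N := by
  intro H hH X _ f hf hX
  refine h (H.map N.subtype) (hH.trans' hN.isSubnormal) X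
    (f.comp (H.equivMapOfInjective N.subtype N.subtype_injective).symm.toMonoidHom) ?_ hX
  exact hf.comp (MulEquiv.surjective _)

theorem CF.quot {G : Type u} [Group G] (h : CF G) (N : Subgroup G) [N.Normal] : CF (G ⧸ N) := by
  intro H hH X _ f hf hX
  refine h (H.comap (QuotientGroup.mk' N)) (hH.comap _) X
    (f.comp ((QuotientGroup.mk' N).subgroupComap H)) ?_ hX
  exact hf.comp (MonoidHom.subgroupComap_surjective_of_surjective _ _
    (QuotientGroup.mk'_surjective N))

theorem reduce_aux (k : ℕ) : ∀ (G : Type u) [Group G] [Finite G], Nat.card G = k → CF G →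
    FrobProp G := by
  induction k using Nat.strong_induction_on with
  | _ k ih =>
  intro G _ _ hk hCF n hn hle
  have fin : ∀ H : Subgroup G, Nat.card H = n → (H : Set G) = {x : G | x ^ n = 1} :=
    fun H h1 => Set.eq_of_subset_of_ncard_le
      (fun x hx => orderOf_dvd_iff_pow_eq_one.1 (h1 ▸ H1.orderOf_dvd_card_of_mem hx))
      (by rw [H80.ncard_coe_subgroup, h1]; exact hle)
  rcases subsingleton_or_nontrivial G with hs | hs
  · exact ⟨⊤, Set.ext fun x => by simp [Subsingleton.elim x 1]⟩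
  by_cases hsimp : IsSimpleGroup G
  · exact hCF ⊤ IsSubnormal.top G (Subgroup.topEquiv (G := G)).toMonoidHom
      (MulEquiv.surjective _) hsimp n hn hle
  obtain ⟨N, hN, hN0, hN1⟩ : ∃ N : Subgroup G, N.Normal ∧ N ≠ ⊥ ∧ N ≠ ⊤ := by
    by_contra hcon
    refine hsimp ⟨fun N hN => ?_⟩
    by_contra h2
    exact hcon ⟨N, hN, fun h => h2 (Or.inl h), fun h => h2 (Or.inr h)⟩
  -- the quotient step
  have hq : ∀ (M : Subgroup G) [M.Normal], M ≠ ⊥ → ∃ K : Subgroup (G ⧸ M),
      Nat.card K = n / Nat.gcd n (Nat.card M) := by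
    intro M _ hM
    obtain ⟨h1, h2, -⟩ := quot_step M hn hle
    obtain ⟨K, hK⟩ := ih _ (hk ▸ H1.card_quotient_lt hM) (G ⧸ M) rfl (hCF.quot M) _ h1 h2
    exact ⟨K, by rw [← H80.ncard_coe_subgroup, hK]; exact le_antisymm h2 (ncard_ge h1)⟩
  by_cases hcop : Nat.gcd n (Nat.card N) = 1
  · obtain ⟨K, hKc⟩ := hq N hN0
    rw [hcop, Nat.div_one] at hKc
    have hr : N.relIndex (K.comap (QuotientGroup.mk' N)) = n := by
      rw [← H1.card_map_mk'_eq_relIndex, Subgroup.map_comap_eq_self_of_surjective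
        (QuotientGroup.mk'_surjective N), hKc]
    obtain ⟨H, -, -, -, hH⟩ := H3.exists_complement_in (N := N)
      (T := K.comap (QuotientGroup.mk' N)) (QuotientGroup.le_comap_mk' N K)
      Subgroup.le_normalizer_of_normal (hr ▸ Nat.Coprime.symm hcop)
    rw [hr] at hH
    exact ⟨H, fin H hH⟩
  · obtain ⟨-, -, h3⟩ := quot_step N hn hle
    have hlt : Nat.card N < k := by
      rw [← hk]
      exact lt_of_le_of_ne (Subgroup.card_le_card_group N)
        (fun h => hN1 (Subgroup.eq_top_of_card_eq N h))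
    obtain ⟨K1, hK1⟩ := ih _ hlt N rfl (hCF.sub N) _ (Nat.gcd_dvd_right n _) h3
    have hK1c : Nat.card K1 = Nat.gcd n (Nat.card N) := by
      rw [← H80.ncard_coe_subgroup, hK1]; exact le_antisymm h3 (ncard_ge (Nat.gcd_dvd_right n _))
    have hmem : ∀ y : N, y ∈ K1 ↔ y ^ Nat.gcd n (Nat.card N) = 1 := fun y => by
      rw [← SetLike.mem_coe, hK1]; rfl
    set M := K1.map N.subtype with hM
    have hMc : Nat.card M = Nat.gcd n (Nat.card N) := by rw [hM, card_subtype, hK1c]
    haveI : M.Normal := by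
      refine ⟨?_⟩
      rintro _ ⟨y, hy, rfl⟩ g
      refine ⟨⟨g * y * g⁻¹, hN.conj_mem _ y.2 g⟩, (hmem _).2 (Subtype.ext ?_), rfl⟩
      have := congrArg Subtype.val ((hmem y).1 hy)
      simp only [SubmonoidClass.coe_pow, OneMemClass.coe_one] at this ⊢
      rw [conj_pow, this]; simp
    have hM0 : M ≠ ⊥ := fun h => hcop (by rw [← hMc, h, Subgroup.card_bot])
    obtain ⟨K, hKc⟩ := hq M hM0
    refine ⟨K.comap (QuotientGroup.mk' M), fin _ ?_⟩
    have hg : Nat.gcd n (Nat.card M) = Nat.card M := by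
      rw [hMc]; exact Nat.gcd_eq_right (Nat.gcd_dvd_left _ _)
    rw [H1.card_comap_mk', hKc, hg]
    exact Nat.div_mul_cancel (hg ▸ Nat.gcd_dvd_left _ _)

theorem reduce {G : Type u} [Group G] [Finite G] (h : CF G) : FrobProp G :=
  reduce_aux _ G rfl h

end H99.FN
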