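import Mathlib
import Cfsg.Agent.Base
import Cfsg.Agent.Lib.FrobN.Reduce

/-! Frobenius' conjecture: counting tools. -/

set_option autoImplicit false
open Subgroup

namespace H99.FN

/-- a subgroup of order `n` exists whenever `x ^ n = 1` has at most `n` solutions. -/
def FP (G : Type*) [Group G] : Prop :=
  ∀ n : ℕ, n ∣ Nat.card G → {x : G | x ^ n = 1}.ncard ≤ n → ∃ H : Subgroup G, Nat.card H = n

variable {G : Type*} [Group G]

theorem FP.frob [Finite G] (h : FP G) : FrobProp G := by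
  intro n hn hle
  obtain ⟨H, h1⟩ := h n hn hle
  exact ⟨H, Set.eq_of_subset_of_ncard_le
      (fun x hx => orderOf_dvd_iff_pow_eq_one.1 (h1 ▸ H1.orderOf_dvd_card_of_mem hx))
      (by rw [H80.ncard_coe_subgroup, h1]; exact hle)⟩

theorem FP.of_equiv {G' : Type*} [Group G'] (e : G ≃* G') (h : FP G') : FP G := by
  intro n hn hle
  have h1 : {x : G' | x ^ n = 1} = e '' {x : G | x ^ n = 1} := by
    ext y
    constructor
    · intro hy
      refine ⟨e.symm y, ?_, e.apply_symm_apply y⟩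
      change e.symm y ^ n = 1
      rw [← map_pow, show y ^ n = 1 from hy, map_one]
    · rintro ⟨x, hx, rfl⟩
      change e x ^ n = 1
      rw [← map_pow, show x ^ n = 1 from hx, map_one]
  obtain ⟨H, hH⟩ := h n (Nat.card_congr e.toEquiv ▸ hn)
    (by rw [h1, Set.ncard_image_of_injective _ e.injective]; exact hle)
  exact ⟨H.map e.symm.toMonoidHom, by rw [card_map_of_injective e.symm.injective, hH]⟩

theorem ex_top {n : ℕ} (h : n = Nat.card G) : ∃ H : Subgroup G, Nat.card H = n :=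
  ⟨⊤, by rw [card_top, h]⟩

theorem ex_one : ∃ H : Subgroup G, Nat.card H = 1 := ⟨⊥, card_bot⟩

theorem ex_pp [Finite G] {p k n : ℕ} (hp : p.Prime) (h : n = p ^ k) (hn : n ∣ Nat.card G) :
    ∃ H : Subgroup G, Nat.card H = n := by
  have := Fact.mk hp
  subst h
  exact Sylow.exists_subgroup_card_pow_prime p hn

theorem ex_of_le [Finite G] {n : ℕ} (hn : n ∣ Nat.card G) (h : Nat.card G ≤ n) :
    ∃ H : Subgroup G, Nat.card H = n :=
  ex_top (le_antisymm (Nat.le_of_dvd Nat.card_pos hn) h)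

theorem card_le_of_all [Finite G] {n : ℕ} (h : ∀ x : G, x ^ n = 1) :
    Nat.card G ≤ {x : G | x ^ n = 1}.ncard := by
  rw [Set.eq_univ_of_forall (s := {x : G | x ^ n = 1}) h, Set.ncard_univ]

theorem le_of_imp [Finite G] {n d : ℕ} (hd : d ∣ Nat.card G) (h : ∀ x : G, x ^ d = 1 → x ^ n = 1) :
    d ≤ {x : G | x ^ n = 1}.ncard :=
  (ncard_ge hd).trans (Set.ncard_le_ncard h)

theorem conj_count [Finite G] (N : Subgroup G) (S X : Set G)
    (h1 : ∀ s ∈ S, ∀ g : G, g * s * g⁻¹ ∈ S → g ∈ N) (h2 : ∀ s ∈ S, ∀ g : G, g * s * g⁻¹ ∈ X) :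
    N.index * S.ncard ≤ X.ncard := by
  have h3 : ((Set.univ : Set G) ×ˢ S).ncard ≤ Nat.card N * X.ncard := by
    refine H80.ncard_le_mul_of_fiber _ X (fun q : G × G => q.1 * q.2 * q.1⁻¹)
      (fun q hq => h2 _ hq.2 _) _ ?_
    intro y _
    rcases Set.eq_empty_or_nonempty {q ∈ (Set.univ : Set G) ×ˢ S | q.1 * q.2 * q.1⁻¹ = y} with h | h
    · rw [h]; simp
    obtain ⟨q0, hq0, e0⟩ := h
    rw [← H80.ncard_coe_subgroup]
    refine Set.ncard_le_ncard_of_injOn (fun q : G × G => q0.1⁻¹ * q.1) ?_ ?_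
    · rintro q ⟨hq, e⟩
      refine h1 _ hq.2 _ ?_
      have : q0.1⁻¹ * q.1 * q.2 * (q0.1⁻¹ * q.1)⁻¹ = q0.2 := by
        calc _ = q0.1⁻¹ * (q.1 * q.2 * q.1⁻¹) * q0.1 := by group
          _ = q0.2 := by rw [e, ← e0]; group
      rw [this]; exact hq0.2
    · rintro q ⟨-, e⟩ q' ⟨-, e'⟩ h
      have h4 : q.1 = q'.1 := mul_left_cancel h
      refine Prod.ext h4 ?_
      rw [← e', ← h4] at e
      simpa using e
  rw [Set.ncard_prod, Set.ncard_univ, ← N.card_mul_index, mul_assoc] at h3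
  exact Nat.le_of_mul_le_mul_left h3 Nat.card_pos

/-- the non-trivial solutions of `x ^ n = 1` of order dividing `A`. -/
def Y (G : Type*) [Group G] (n A : ℕ) : Set G := {x | x ≠ 1 ∧ x ^ n = 1 ∧ x ^ A = 1}

theorem ti_aux [Finite G] (K N : Subgroup G)
    (hTI : ∀ g x : G, x ∈ K → x ≠ 1 → g * x * g⁻¹ ∈ K → g ∈ N) (n : ℕ) :
    N.index * ({y : K | y ^ n = 1}.ncard - 1) ≤ (Y G n (Nat.card K)).ncard := by
  have h1 : {x : G | x ∈ K ∧ x ≠ 1 ∧ x ^ n = 1}.ncard = {y : K | y ^ n = 1}.ncard - 1 := by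
    rw [← Set.ncard_sdiff_singleton_of_mem (show (1 : K) ∈ {y : K | y ^ n = 1} from one_pow n),
      ← Set.ncard_image_of_injective _ K.subtype_injective]
    congr 1
    ext x
    constructor
    · rintro ⟨h1, h2, h3⟩
      exact ⟨⟨x, h1⟩, ⟨Subtype.ext h3, fun e => h2 (congrArg Subtype.val e)⟩, rfl⟩
    · rintro ⟨y, ⟨h1, h2⟩, rfl⟩
      exact ⟨y.2, fun e => h2 (Subtype.ext e), congrArg Subtype.val h1⟩
  rw [← h1]
  refine conj_count N _ _ (fun s hs g hg => hTI g s hs.1 hs.2.1 hg.1) ?_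
  rintro s ⟨h1, h2, h3⟩ g
  refine ⟨fun e => h2 (by simpa using e), ?_, ?_⟩
  · rw [conj_pow, h3]; simp
  · rw [conj_pow, orderOf_dvd_iff_pow_eq_one.1 (H1.orderOf_dvd_card_of_mem h1)]; simp

theorem ti_count [Finite G] (K N : Subgroup G)
    (hTI : ∀ g x : G, x ∈ K → x ≠ 1 → g * x * g⁻¹ ∈ K → g ∈ N) (n : ℕ) :
    N.index * (Nat.gcd n (Nat.card K) - 1) ≤ (Y G n (Nat.card K)).ncard := by
  refine le_trans (Nat.mul_le_mul_left _ (Nat.sub_le_sub_right ?_ 1)) (ti_aux K N hTI n)
  exact Nat.le_of_dvd ((Set.ncard_pos (Set.toFinite _)).2 ⟨1, one_pow n⟩) (H79.frobenius_gcd n)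

theorem ti_count' [Finite G] (K N : Subgroup G)
    (hTI : ∀ g x : G, x ∈ K → x ≠ 1 → g * x * g⁻¹ ∈ K → g ∈ N) {n : ℕ} (h : ∀ x ∈ K, x ^ n = 1) :
    N.index * (Nat.card K - 1) ≤ (Y G n (Nat.card K)).ncard := by
  refine le_trans (Nat.mul_le_mul_left _ (Nat.sub_le_sub_right ?_ 1)) (ti_aux K N hTI n)
  exact card_le_of_all fun x => Subtype.ext (h x x.2)

theorem Y_disj {n A B : ℕ} (h : A.Coprime B) : Disjoint (Y G n A) (Y G n B) := by
  rw [Set.disjoint_left]
  intro x hx hx'
  refine hx.1 ?_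
  have := (pow_gcd_eq_one (a := x)).2 ⟨hx.2.2, hx'.2.2⟩
  rwa [h, pow_one] at this

theorem sum4 [Finite G] {n A B C D : ℕ} (h1 : A.Coprime B) (h2 : A.Coprime C) (h3 : A.Coprime D)
    (h4 : B.Coprime C) (h5 : B.Coprime D) (h6 : C.Coprime D) :
    1 + (Y G n A).ncard + (Y G n B).ncard + (Y G n C).ncard + (Y G n D).ncard ≤
      {x : G | x ^ n = 1}.ncard := by
  have h0 : ∀ E, Disjoint ({1} : Set G) (Y G n E) := fun E => by
    rw [Set.disjoint_singleton_left]; exact fun h => h.1 rfl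
  rw [← Set.ncard_singleton (1 : G), ← Set.ncard_union_eq (h0 A), ← Set.ncard_union_eq,
    ← Set.ncard_union_eq, ← Set.ncard_union_eq]
  · refine Set.ncard_le_ncard ?_
    rintro x ((((h | h) | h) | h) | h)
    · rw [show x = 1 from h]; exact one_pow n
    all_goals exact h.2.1
  all_goals simp only [Set.disjoint_union_left, h0, Y_disj h1, Y_disj h2, Y_disj h3, Y_disj h4,
    Y_disj h5, Y_disj h6, and_self]

theorem sum3 [Finite G] {n A B C : ℕ} (h1 : A.Coprime B) (h2 : A.Coprime C) (h4 : B.Coprime C) :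
    1 + (Y G n A).ncard + (Y G n B).ncard + (Y G n C).ncard ≤ {x : G | x ^ n = 1}.ncard :=
  le_trans (Nat.le_add_right _ _) (sum4 (D := 1) h1 h2 (by simp) h4 (by simp) (by simp))

theorem sum2 [Finite G] {n A B : ℕ} (h1 : A.Coprime B) :
    1 + (Y G n A).ncard + (Y G n B).ncard ≤ {x : G | x ^ n = 1}.ncard :=
  le_trans (Nat.le_add_right _ _) (sum3 (C := 1) h1 (by simp) (by simp))

theorem sum1 [Finite G] {n A : ℕ} : 1 + (Y G n A).ncard ≤ {x : G | x ^ n = 1}.ncard :=
  le_trans (Nat.le_add_right _ _) (sum2 (B := 1) (by simp))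

/-- counting modulo `r` with an element of order `r`. -/
theorem fix_modEq [Finite G] {r : ℕ} (hr : r.Prime) {x : G} (hx : x ^ r = 1) (S : Set G)
    (hS : ∀ s ∈ S, x * s * x⁻¹ ∈ S) : S.ncard ≡ {s ∈ S | x * s = s * x}.ncard [MOD r] := by
  classical
  have := Fact.mk hr
  have := Fintype.ofFinite G
  let f : Function.End S := fun s => ⟨x * s * x⁻¹, hS _ s.2⟩
  have hf : ∀ (k : ℕ) (s : S), ((f ^ k) s : G) = x ^ k * s * (x ^ k)⁻¹ := by
    intro k
    induction k with
    | zero => intro s; simp; rfl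
    | succ k ih =>
      intro s
      rw [pow_succ']
      change x * ((f ^ k) s : G) * x⁻¹ = _
      rw [ih, pow_succ']; group
  have h1 : f ^ r ^ 1 = 1 := by
    funext s
    refine Subtype.ext ?_
    rw [pow_one, hf, hx]; simp; rfl
  have h2 := Equiv.Perm.card_fixedPoints_modEq h1
  rw [← Nat.card_eq_fintype_card, ← Nat.card_eq_fintype_card, Nat.card_coe_set_eq,
    Nat.card_coe_set_eq, ← Set.ncard_image_of_injective _ Subtype.val_injective] at h2
  convert h2 using 2
  ext s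
  constructor
  · rintro ⟨h3, h4⟩
    refine ⟨⟨s, h3⟩, Subtype.ext ?_, rfl⟩
    change x * s * x⁻¹ = s
    rw [h4]; simp
  · rintro ⟨s, h3, rfl⟩
    refine ⟨s.2, ?_⟩
    have : x * s * x⁻¹ = s := congrArg Subtype.val h3
    exact mul_inv_eq_iff_eq_mul.1 this

theorem card_modEq_of_norm [Finite G] {r : ℕ} (hr : r.Prime) {x : G} (hx : x ^ r = 1)
    {Q : Subgroup G} (hQ : x ∈ normalizer (Q : Set G)) :
    Nat.card Q ≡ Nat.card (Q ⊓ centralizer {x} : Subgroup G) [MOD r] := by
  have := fix_modEq hr hx (Q : Set G) (fun s hs => (mem_normalizer_iff.1 hQ s).1 hs)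
  rw [H80.ncard_coe_subgroup] at this
  rw [← H80.ncard_coe_subgroup (Q ⊓ centralizer {x})]
  convert this using 2
  ext s
  simp [mem_centralizer_singleton_iff, eq_comm]

theorem cc_modEq [Finite G] {r : ℕ} (hr : r.Prime) {x : G} (hx : orderOf x = r)
    (hC : centralizer ({x} : Set G) ≤ zpowers x) {d : ℕ} (hd : ¬ r ∣ d) :
    {y : G | y ^ d = 1}.ncard ≡ 1 [MOD r] := by
  have := fix_modEq hr (hx ▸ pow_orderOf_eq_one x) {y : G | y ^ d = 1} (fun s hs => by
    change _ ^ d = 1
    rw [conj_pow, show s ^ d = 1 from hs]; simp)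
  convert this using 1
  rw [← Set.ncard_singleton (1 : G)]
  congr 1
  ext s
  simp only [Set.mem_singleton_iff, Set.mem_ofPred_eq]
  constructor
  · rintro rfl; simp
  · rintro ⟨h1, h2⟩
    have h3 : s ∈ zpowers x := hC (mem_centralizer_singleton_iff.2 h2.symm)
    have h4 : orderOf s ∣ r := by
      rw [← hx]; exact orderOf_dvd_of_mem_zpowers h3
    rcases (Nat.dvd_prime hr).1 h4 with h | h
    · exact orderOf_eq_one_iff.1 h
    · exact absurd (h ▸ orderOf_dvd_of_pow_eq_one h1) hd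

theorem ti_zpowers [Finite G] {r : ℕ} (hr : r.Prime) {x : G} (hx : orderOf x = r) (g y : G)
    (hy : y ∈ zpowers x) (h1 : y ≠ 1) (h : g * y * g⁻¹ ∈ zpowers x) :
    g ∈ normalizer (zpowers x : Set G) := by
  have := Fact.mk hr
  have h2 : zpowers y = zpowers x := by
    refine eq_of_le_of_card_ge (zpowers_le.2 hy) ?_
    rw [Nat.card_zpowers, Nat.card_zpowers, hx]
    have h4 : orderOf y ∣ r := by
      rw [← hx]; exact orderOf_dvd_of_mem_zpowers hy
    rcases (Nat.dvd_prime hr).1 h4 with h | h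
    · exact absurd (orderOf_eq_one_iff.1 h) h1
    · exact h.ge
  refine mem_normalizer_fintype ?_
  intro n hn
  have hn' : n ∈ zpowers y := h2 ▸ hn
  obtain ⟨k, rfl⟩ := mem_zpowers_iff.1 hn'
  rw [← conj_zpow]
  exact zpow_mem h k

/-- Sylow data of a subgroup of prime order. -/
theorem prime_sylow [Finite G] {p m : ℕ} (hp : p.Prime) (hG : Nat.card G = p * m)
    (hm : ¬ p ∣ m) {x : G} (hx : orderOf x = p) :
    ∃ P : Sylow p G, (P : Subgroup G) = zpowers x := by
  have := Fact.mk hp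
  have hm0 : m ≠ 0 := by rintro rfl; exact hm (dvd_zero _)
  have hc : Nat.card (zpowers x) = p ^ (Nat.card G).factorization p := by
    rw [Nat.card_zpowers, hx, hG, Nat.factorization_mul hp.ne_zero hm0, Finsupp.add_apply,
      hp.factorization_self, Nat.factorization_eq_zero_of_not_dvd hm]; simp
  exact ⟨Sylow.ofCard (zpowers x) hc, rfl⟩

theorem cent_zpowers (x : G) :
    centralizer ((zpowers x : Subgroup G) : Set G) = centralizer {x} := by
  apply le_antisymm (centralizer_le (by simp))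
  intro y hy
  rw [mem_centralizer_iff]
  intro z hz
  obtain ⟨b, rfl⟩ := mem_zpowers_iff.1 hz
  exact ((show Commute y x from mem_centralizer_singleton_iff.1 hy).zpow_right b).eq.symm

theorem norm_data [Finite G] {p m : ℕ} (hp : p.Prime) (hG : Nat.card G = p * m)
    (hm : ¬ p ∣ m) {x : G} (hx : orderOf x = p) :
    ∃ e, e ∣ p - 1 ∧ (normalizer (zpowers x : Set G)).index ≡ 1 [MOD p] ∧
      Nat.card (normalizer (zpowers x : Set G)) = Nat.card (centralizer ({x} : Set G)) * e := by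
  have := Fact.mk hp
  obtain ⟨P, hP⟩ := prime_sylow hp hG hm hx
  have h1 := card_sylow_modEq_one p G
  rw [P.card_eq_index_normalizer, ← Sylow.coe_coe, hP] at h1
  let f := (zpowers x).normalizerMonoidHom
  have hk : f.ker = (centralizer {x}).subgroupOf (normalizer (zpowers x : Set G)) := by
    rw [normalizerMonoidHom_ker, cent_zpowers]
  have hr : Nat.card f.range ∣ p - 1 := by
    have := card_subgroup_dvd_card f.range
    rwa [IsCyclic.card_mulAut, Nat.card_zpowers, hx, Nat.totient_prime hp] at this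
  refine ⟨_, hr, h1, ?_⟩
  rw [← index_ker, ← f.ker.card_mul_index, hk,
    Nat.card_congr (subgroupOfEquivOfLe (cent_zpowers x ▸ centralizer_le_normalizer _)).toEquiv]

theorem cc_count [Finite G] {p m : ℕ} (hp : p.Prime) (hG : Nat.card G = p * m)
    (hm : ¬ p ∣ m) {x : G} (hx : orderOf x = p) (hC : centralizer ({x} : Set G) ≤ zpowers x) :
    ∃ e i, e ∣ p - 1 ∧ i ≡ 1 [MOD p] ∧ m = e * i ∧
      ∀ n, p ∣ n → i * (p - 1) ≤ (Y G n p).ncard := by
  obtain ⟨e, h1, h2, h3⟩ := norm_data hp hG hm hx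
  have hc : Nat.card (centralizer ({x} : Set G)) = p := by
    rw [le_antisymm hC (by rw [zpowers_le, mem_centralizer_singleton_iff]), Nat.card_zpowers, hx]
  refine ⟨e, _, h1, h2, ?_, fun n hn => ?_⟩
  · have h4 := (normalizer (zpowers x : Set G)).card_mul_index
    rw [h3, hc, hG, mul_assoc] at h4
    exact (Nat.eq_of_mul_eq_mul_left hp.pos h4).symm
  · have := ti_count' (zpowers x) _ (ti_zpowers hp hx) (n := n) (fun y hy => by
      rw [← orderOf_dvd_iff_pow_eq_one]
      refine dvd_trans ?_ hn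
      rw [← hx]; exact orderOf_dvd_of_mem_zpowers hy)
    rwa [Nat.card_zpowers, hx] at this

/-- a self-centralising element from the element orders. -/
theorem cc_of_orders [Finite G] {p m : ℕ} (hp : p.Prime) (hG : Nat.card G = p * m)
    (hm : ¬ p ∣ m) (h : ∀ y : G, p ∣ orderOf y → orderOf y = p) :
    ∃ x : G, orderOf x = p ∧ centralizer ({x} : Set G) ≤ zpowers x := by
  have := Fact.mk hp
  obtain ⟨x, hx⟩ := exists_prime_orderOf_dvd_card' p (hG ▸ dvd_mul_right p m)
  refine ⟨x, hx, fun y hy => ?_⟩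
  have hc : Commute y x := mem_centralizer_singleton_iff.1 hy
  have hy' : y ^ p = 1 := by
    by_cases h1 : p ∣ orderOf y
    · rw [← h y h1, pow_orderOf_eq_one]
    · have h2 : (orderOf y).Coprime (orderOf x) := by
        rw [hx]; exact ((Nat.Prime.coprime_iff_not_dvd hp).2 h1).symm
      have h3 := hc.orderOf_mul_eq_mul_orderOf_of_coprime h2
      have h4 := h (y * x) (by rw [h3, hx]; exact dvd_mul_left _ _)
      rw [h3, hx] at h4
      have h5 : orderOf y = 1 := by
        have := hp.pos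
        nlinarith [orderOf_pos y]
      rw [orderOf_eq_one_iff.1 h5, one_pow]
  obtain ⟨P, hP⟩ := prime_sylow hp hG hm hx
  have h1 : IsPGroup p (zpowers y) := by
    intro g
    obtain ⟨k, hk⟩ := mem_zpowers_iff.1 g.2
    refine ⟨1, Subtype.ext ?_⟩
    rw [pow_one, Subgroup.coe_pow, ← hk, ← zpow_natCast, ← zpow_mul, mul_comm, zpow_mul,
      zpow_natCast, hy', one_zpow, Subgroup.coe_one]
  have h2 : zpowers y ≤ normalizer ((P : Subgroup G) : Set G) := by
    rw [zpowers_le, hP]
    exact centralizer_le_normalizer _ (cent_zpowers x ▸ hy)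
  have h3 := h1.inf_normalizer_sylow P
  rw [← Sylow.coe_coe, inf_eq_left.2 h2] at h3
  rw [← hP]
  exact (h3.le.trans inf_le_right) (mem_zpowers y)

theorem not_norm_le_cent [Finite G] [IsSimpleGroup G] (hG : ¬ IsMulCommutative G) {p : ℕ}
    [Fact p.Prime] (P : Sylow p G) (hp : p ∣ Nat.card G) :
    ¬ normalizer ((P : Subgroup G) : Set G) ≤ centralizer ((P : Subgroup G) : Set G) := by
  intro h
  have h1 := MonoidHom.ker_transferSylow_isComplement' P h
  rcases (MonoidHom.normal_ker (MonoidHom.transferSylow P h)).eq_bot_or_eq_top with e | e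
  · rw [e, isComplement'_bot_left] at h1
    rw [h1, normalizer_eq_top] at h
    exact hG ⟨⟨fun a b => (mem_centralizer_iff.1 (h (mem_top b)) a (mem_top a))⟩⟩
  · exact MonoidHom.not_dvd_card_ker_transferSylow P h (by rw [e, card_top]; exact hp)

/-- few elements have order divisible by the full power of `p`. -/
theorem mp [Finite G] [IsSimpleGroup G] (hG : ¬ IsMulCommutative G) {p k m : ℕ} (hp : p.Prime)
    (hc : Nat.card G = p ^ (k + 1) * m) (hm : ¬ p ∣ m) :
    2 * p * {y : G | p ^ (k + 1) ∣ orderOf y}.ncard ≤ (p - 1) * Nat.card G := by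
  classical
  have := Fact.mk hp
  have hm0 : m ≠ 0 := by rintro rfl; exact hm (dvd_zero _)
  have hfac : (Nat.card G).factorization p = k + 1 := by
    rw [hc, Nat.factorization_mul (pow_ne_zero _ hp.ne_zero) hm0, Finsupp.add_apply,
      hp.factorization_pow, Nat.factorization_eq_zero_of_not_dvd hm]; simp
  set Z : Set G := {y : G | p ^ (k + 1) ∣ orderOf y} with hZ
  have hex : ∀ y : G, ∃ P : Sylow p G, y ∈ Z → y ∈ centralizer ((P : Subgroup G) : Set G) := by
    intro y
    by_cases hy : y ∈ Z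
    · have h1 := orderOf_pow_orderOf_div (orderOf_pos y).ne' hy
      refine ⟨Sylow.ofCard (zpowers (y ^ (orderOf y / p ^ (k + 1))))
        (by rw [Nat.card_zpowers, h1, hfac]), fun _ => ?_⟩
      change y ∈ centralizer ((zpowers _ : Subgroup G) : Set G)
      rw [cent_zpowers, mem_centralizer_singleton_iff]
      exact (Commute.self_pow y _).eq
    · exact ⟨default, fun h => absurd h hy⟩
  choose f hf using hex
  set s := Nat.card (Sylow p G) with hs
  have hs0 : 0 < s := Nat.card_pos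
  have h1 : Z.ncard ≤ ((p - 1) * Nat.card G / (2 * p * s)) * (Set.univ : Set (Sylow p G)).ncard := by
    refine H80.ncard_le_mul_of_fiber Z _ f (fun _ _ => Set.mem_univ _) _ ?_
    intro P _
    rw [Nat.le_div_iff_mul_le (by have := hp.pos; positivity)]
    set C := centralizer ((P : Subgroup G) : Set G) with hC
    rcases Set.eq_empty_or_nonempty {x ∈ Z | f x = P} with h | ⟨y0, hy0, e0⟩
    · rw [h]; simp
    have hsub : ∀ y ∈ {x ∈ Z | f x = P}, y ∈ C := fun y hy => by
      have := hf y hy.1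
      rwa [hy.2] at this
    obtain ⟨c, hcc⟩ : p ∣ Nat.card C :=
      ((dvd_pow_self p (Nat.succ_ne_zero k)).trans hy0).trans
        (H1.orderOf_dvd_card_of_mem (hsub y0 ⟨hy0, e0⟩))
    have h2 : c ≤ {y : C | y ^ c = 1}.ncard := ncard_ge (hcc ▸ dvd_mul_left c p)
    rw [← Set.ncard_image_of_injective _ C.subtype_injective] at h2
    have h3 : {x ∈ Z | f x = P}.ncard + (C.subtype '' {y : C | y ^ c = 1}).ncard ≤ p * c := by
      rw [← Set.ncard_union_eq, ← hcc, ← H80.ncard_coe_subgroup]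
      · refine Set.ncard_le_ncard ?_
        rintro y (hy | ⟨y, -, rfl⟩)
        exacts [hsub y hy, y.2]
      · rw [Set.disjoint_left]
        rintro _ hy ⟨y, hy', rfl⟩
        have h4 : (y : G) ^ c = 1 := congrArg Subtype.val hy'
        have h5 : p ^ (k + 1) ∣ c := hy.1.trans (orderOf_dvd_of_pow_eq_one h4)
        have h6 : p * p ^ (k + 1) ∣ p ^ (k + 1) * m := by
          rw [← hc]
          exact (Nat.mul_dvd_mul_left p h5).trans (hcc ▸ card_subgroup_dvd_card C)
        rw [mul_comm p] at h6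
        exact hm (Nat.dvd_of_mul_dvd_mul_left (pow_pos hp.pos _) h6)
    have h4 : 2 * Nat.card C ≤ Nat.card (normalizer ((P : Subgroup G) : Set G)) := by
      have hle : C ≤ normalizer ((P : Subgroup G) : Set G) := centralizer_le_normalizer _
      obtain ⟨t, ht⟩ := card_dvd_of_le hle
      have hne := not_norm_le_cent hG P
        (hc ▸ (dvd_pow_self p (Nat.succ_ne_zero k)).mul_right m)
      have ht1 : t ≠ 1 := by
        rintro rfl
        exact hne (eq_of_le_of_card_ge hle (by rw [ht, mul_one])).ge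
      have ht0 : t ≠ 0 := by
        rintro rfl
        exact Nat.card_pos.ne' (ht.trans (mul_zero _))
      rw [ht, mul_comm]
      exact Nat.mul_le_mul_left _ (by omega)
    have h5 := (normalizer ((P : Subgroup G) : Set G)).card_mul_index
    have h7 : (normalizer ((P : Subgroup G) : Set G)).index = s := P.card_eq_index_normalizer.symm
    rw [h7] at h5
    obtain ⟨p', rfl⟩ : ∃ p', p = p' + 1 := ⟨p - 1, (Nat.sub_add_cancel hp.pos).symm⟩
    rw [← h5, Nat.add_sub_cancel]
    have h6 : {x ∈ Z | f x = P}.ncard ≤ p' * c := by nlinarith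
    calc _ ≤ p' * c * (2 * (p' + 1) * s) := Nat.mul_le_mul_right _ h6
      _ = p' * (2 * ((p' + 1) * c) * s) := by ring
      _ ≤ _ := by rw [← hcc]; gcongr
  rw [Set.ncard_univ, ← hs] at h1
  calc _ ≤ 2 * p * (((p - 1) * Nat.card G / (2 * p * s)) * s) := Nat.mul_le_mul_left _ h1
    _ = ((p - 1) * Nat.card G / (2 * p * s)) * (2 * p * s) := by ring
    _ ≤ _ := Nat.div_mul_le_self _ _

end H99.FN
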