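import Mathlib
import Cfsg.Agent.Base
import Cfsg.Agent.Lib.FrobN.Tools

/-! Frobenius' conjecture for four small groups, from their orders and element orders. -/

set_option autoImplicit false
open Subgroup

namespace H99.FN

variable {G : Type*} [Group G] [Finite G]

theorem pow_of_dvd {x : G} {a b : ℕ} (h : x ^ a = 1) (hab : a ∣ b) : x ^ b = 1 := by
  obtain ⟨k, rfl⟩ := hab
  rw [pow_mul, h, one_pow]

theorem cc_pack {p m a : ℕ} (hp : p.Prime) (hG : Nat.card G = p * m) (hm : ¬ p ∣ m)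
    (ha : ¬ p ∣ a) (h : ∀ x : G, x ^ a = 1 ∨ x ^ p = 1) :
    (∀ d, ¬ p ∣ d → {y : G | y ^ d = 1}.ncard ≡ 1 [MOD p]) ∧
    ∃ e i, e ∣ p - 1 ∧ i ≡ 1 [MOD p] ∧ m = e * i ∧
      ∀ n, p ∣ n → i * (p - 1) ≤ (Y G n p).ncard := by
  obtain ⟨x, hx, hC⟩ := cc_of_orders hp hG hm (fun y hy => by
    rcases h y with h1 | h1
    · exact absurd (hy.trans (orderOf_dvd_of_pow_eq_one h1)) ha
    · exact Nat.dvd_antisymm (orderOf_dvd_of_pow_eq_one h1) hy)
  exact ⟨fun d hd => cc_modEq hp hx hC hd, cc_count hp hG hm hx hC⟩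

theorem eq_one_of_cop {x : G} {a b : ℕ} (h : x ^ a = 1) (h' : x ^ b = 1) (hab : a.Coprime b) :
    x = 1 := by
  have := (pow_gcd_eq_one (a := x)).2 ⟨h, h'⟩
  rwa [hab, pow_one] at this

theorem fp_2520 (hG : Nat.card G = 2520) (h : ∀ x : G, x ^ 12 = 1 ∨ x ^ 5 = 1 ∨ x ^ 7 = 1) :
    FP G := by
  intro n hn hle
  have hN := le_antisymm hle (ncard_ge hn)
  obtain ⟨a1, e, i, b1, b2, b3, b4⟩ := cc_pack (p := 7) (m := 360) (a := 60) (by norm_num) hG
    (by norm_num) (by norm_num) (fun x => by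
      rcases h x with h | h | h
      exacts [.inl (pow_of_dvd h (by norm_num)), .inl (pow_of_dvd h (by norm_num)), .inr h])
  obtain ⟨a2, e', i', c1, c2, c3, c4⟩ := cc_pack (p := 5) (m := 504) (a := 84) (by norm_num) hG
    (by norm_num) (by norm_num) (fun x => by
      rcases h x with h | h | h
      exacts [.inl (pow_of_dvd h (by norm_num)), .inr h, .inl (pow_of_dvd h (by norm_num))])
  have hi : i = 120 := by
    have := Nat.le_of_dvd (by norm_num) b1
    unfold Nat.ModEq at b2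
    interval_cases e <;> omega
  have hi' : i' = 126 := by
    have := Nat.le_of_dvd (by norm_num) c1
    unfold Nat.ModEq at c2
    interval_cases e' <;> omega
  subst hi hi'
  have s := sum2 (G := G) (n := n) (A := 7) (B := 5) (by norm_num)
  have f1 := a1 n
  have f2 := a2 n
  have f3 := b4 n
  have f4 := c4 n
  have f5 : 420 ∣ n → 2520 ≤ n := fun h1 => hG ▸ (card_le_of_all fun x => by
    rcases h x with h | h | h <;> exact pow_of_dvd h (dvd_trans (by norm_num) h1)).trans hle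
  have f6 : 12 ∣ n → 72 ≤ n := fun h1 => (le_of_imp (by rw [hG]; norm_num) fun x hx => by
    rcases h x with h | h | h
    · exact pow_of_dvd h h1
    all_goals rw [eq_one_of_cop h hx (by norm_num), one_pow]).trans hle
  rw [hN] at f1 f2 s
  have key : ∀ n ∈ Nat.divisors 2520, (¬ 7 ∣ n → n % 7 = 1) → (¬ 5 ∣ n → n % 5 = 1) →
      (7 ∣ n → 721 ≤ n) → (5 ∣ n → 505 ≤ n) → (7 ∣ n → 5 ∣ n → 1225 ≤ n) → (420 ∣ n → 2520 ≤ n) →
      (12 ∣ n → 72 ≤ n) → n = 1 ∨ n = 2520 := by decide +kernel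
  rcases key n (Nat.mem_divisors.2 ⟨hG ▸ hn, by norm_num⟩) f1 f2 (fun h => by have := f3 h; omega)
    (fun h => by have := f4 h; omega) (fun h h' => by have := f3 h; have := f4 h'; omega) f5 f6
    with h1 | h1
  · exact h1 ▸ ex_one
  · exact ex_top (h1.trans hG.symm)

theorem fp_7920 (hG : Nat.card G = 7920) (h : ∀ x : G, x ^ 24 = 1 ∨ x ^ 5 = 1 ∨ x ^ 11 = 1) :
    FP G := by
  intro n hn hle
  have hN := le_antisymm hle (ncard_ge hn)
  obtain ⟨a1, e, i, b1, b2, b3, b4⟩ := cc_pack (p := 11) (m := 720) (a := 120) (by norm_num) hG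
    (by norm_num) (by norm_num) (fun x => by
      rcases h x with h | h | h
      exacts [.inl (pow_of_dvd h (by norm_num)), .inl (pow_of_dvd h (by norm_num)), .inr h])
  obtain ⟨a2, e', i', c1, c2, c3, c4⟩ := cc_pack (p := 5) (m := 1584) (a := 264) (by norm_num) hG
    (by norm_num) (by norm_num) (fun x => by
      rcases h x with h | h | h
      exacts [.inl (pow_of_dvd h (by norm_num)), .inr h, .inl (pow_of_dvd h (by norm_num))])
  have hi : i = 144 := by
    have := Nat.le_of_dvd (by norm_num) b1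
    unfold Nat.ModEq at b2
    interval_cases e <;> omega
  have hi' : i' = 396 := by
    have := Nat.le_of_dvd (by norm_num) c1
    unfold Nat.ModEq at c2
    interval_cases e' <;> omega
  subst hi hi'
  have s := sum2 (G := G) (n := n) (A := 11) (B := 5) (by norm_num)
  have f1 := a1 n
  have f2 := a2 n
  have f3 := b4 n
  have f4 := c4 n
  have f5 : 1320 ∣ n → 7920 ≤ n := fun h1 => hG ▸ (card_le_of_all fun x => by
    rcases h x with h | h | h <;> exact pow_of_dvd h (dvd_trans (by norm_num) h1)).trans hle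
  rw [hN] at f1 f2 s
  have key : ∀ n ∈ Nat.divisors 7920, (¬ 11 ∣ n → n % 11 = 1) → (¬ 5 ∣ n → n % 5 = 1) →
      (11 ∣ n → 1441 ≤ n) → (5 ∣ n → 1585 ≤ n) → (11 ∣ n → 5 ∣ n → 3025 ≤ n) →
      (1320 ∣ n → 7920 ≤ n) → n = 1 ∨ n = 7920 := by decide +kernel
  rcases key n (Nat.mem_divisors.2 ⟨hG ▸ hn, by norm_num⟩) f1 f2 (fun h => by have := f3 h; omega)
    (fun h => by have := f4 h; omega) (fun h h' => by have := f3 h; have := f4 h'; omega) f5
    with h1 | h1
  · exact h1 ▸ ex_one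
  · exact ex_top (h1.trans hG.symm)

theorem fp_5616 (hG : Nat.card G = 5616) (h : ∀ x : G, x ^ 24 = 1 ∨ x ^ 13 = 1) : FP G := by
  intro n hn hle
  have hN := le_antisymm hle (ncard_ge hn)
  obtain ⟨a1, e, i, b1, b2, b3, b4⟩ := cc_pack (p := 13) (m := 432) (a := 24) (by norm_num) hG
    (by norm_num) (by norm_num) h
  have hi : i = 144 := by
    have := Nat.le_of_dvd (by norm_num) b1
    unfold Nat.ModEq at b2
    interval_cases e <;> omega
  subst hi
  have s := sum1 (G := G) (n := n) (A := 13)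
  have f1 := a1 n
  have f3 := b4 n
  have f5 : 312 ∣ n → 5616 ≤ n := fun h1 => hG ▸ (card_le_of_all fun x => by
    rcases h x with h | h <;> exact pow_of_dvd h (dvd_trans (by norm_num) h1)).trans hle
  have f6 : 24 ∣ n → 432 ≤ n := fun h1 => (le_of_imp (by rw [hG]; norm_num) fun x hx => by
    rcases h x with h | h
    · exact pow_of_dvd h h1
    · rw [eq_one_of_cop h hx (by norm_num), one_pow]).trans hle
  rw [hN] at f1 s
  have key : ∀ n ∈ Nat.divisors 5616, (¬ 13 ∣ n → n % 13 = 1) → (13 ∣ n → 1729 ≤ n) →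
      (312 ∣ n → 5616 ≤ n) → (24 ∣ n → 432 ≤ n) → n = 1 ∨ n = 3 ^ 3 ∨ n = 5616 := by
    decide +kernel
  rcases key n (Nat.mem_divisors.2 ⟨hG ▸ hn, by norm_num⟩) f1 (fun h => by have := f3 h; omega)
    f5 f6 with h1 | h1 | h1
  · exact h1 ▸ ex_one
  · exact ex_pp Nat.prime_three h1 hn
  · exact ex_top (h1.trans hG.symm)

theorem fp_6048 (hG : Nat.card G = 6048) (h : ∀ x : G, x ^ 8 = 1 ∨ x ^ 12 = 1 ∨ x ^ 7 = 1) :
    FP G := by
  intro n hn hle
  have hN := le_antisymm hle (ncard_ge hn)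
  obtain ⟨a1, e, i, b1, b2, b3, b4⟩ := cc_pack (p := 7) (m := 864) (a := 24) (by norm_num) hG
    (by norm_num) (by norm_num) (fun x => by
      rcases h x with h | h | h
      exacts [.inl (pow_of_dvd h (by norm_num)), .inl (pow_of_dvd h (by norm_num)), .inr h])
  have hi : i = 288 := by
    have := Nat.le_of_dvd (by norm_num) b1
    unfold Nat.ModEq at b2
    interval_cases e <;> omega
  subst hi
  have s := sum1 (G := G) (n := n) (A := 7)
  have f1 := a1 n
  have f3 := b4 n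
  have f5 : 168 ∣ n → 6048 ≤ n := fun h1 => hG ▸ (card_le_of_all fun x => by
    rcases h x with h | h | h <;> exact pow_of_dvd h (dvd_trans (by norm_num) h1)).trans hle
  have f6 : 24 ∣ n → 864 ≤ n := fun h1 => (le_of_imp (by rw [hG]; norm_num) fun x hx => by
    rcases h x with h | h | h
    · exact pow_of_dvd h (dvd_trans (by norm_num) h1)
    · exact pow_of_dvd h (dvd_trans (by norm_num) h1)
    · rw [eq_one_of_cop h hx (by norm_num), one_pow]).trans hle
  have f7 : 3 ∣ n → 162 ≤ n := fun h1 => by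
    have h2 : {x : G | x ^ 27 = 1}.ncard ≤ n := le_trans (Set.ncard_le_ncard fun x hx => by
      rcases h x with h | h | h
      · rw [eq_one_of_cop h hx (by norm_num)]; exact one_pow n
      · exact pow_of_dvd ((pow_gcd_eq_one (a := x)).2 ⟨h, hx⟩) h1
      · rw [eq_one_of_cop h hx (by norm_num)]; exact one_pow n) hle
    have h3 := a1 27 (by norm_num)
    have h4 : 27 ∣ {x : G | x ^ 27 = 1}.ncard := H79.frobenius (by rw [hG]; norm_num)
    unfold Nat.ModEq at h3
    omega
  rw [hN] at f1 s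
  have key : ∀ n ∈ Nat.divisors 6048, (¬ 7 ∣ n → n % 7 = 1) → (7 ∣ n → 1729 ≤ n) →
      (168 ∣ n → 6048 ≤ n) → (24 ∣ n → 864 ≤ n) → (3 ∣ n → 162 ≤ n) →
      n = 1 ∨ n = 2 ^ 3 ∨ n = 6048 := by
    decide +kernel
  rcases key n (Nat.mem_divisors.2 ⟨hG ▸ hn, by norm_num⟩) f1 (fun h => by have := f3 h; omega)
    f5 f6 f7 with h1 | h1 | h1
  · exact h1 ▸ ex_one
  · exact ex_pp Nat.prime_two h1 hn
  · exact ex_top (h1.trans hG.symm)

/-- coefficients of the powers of a root of `X³ - t X² + s X - 1`. -/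
def pw (t s : ZMod 3) : ℕ → ZMod 3 × ZMod 3 × ZMod 3
  | 0 => (1, 0, 0)
  | k + 1 => ((pw t s k).2.2, (pw t s k).1 - (pw t s k).2.2 * s, (pw t s k).2.1 + (pw t s k).2.2 * t)

theorem pw_spec : ∀ t s : ZMod 3, pw t s 24 = (1, 0, 0) ∨ pw t s 13 = (1, 0, 0) := by
  decide +kernel

theorem spec_sl33 (x : Matrix.SpecialLinearGroup (Fin 3) (ZMod 3)) : x ^ 24 = 1 ∨ x ^ 13 = 1 := by
  set A : Matrix (Fin 3) (Fin 3) (ZMod 3) := x.1 with hA
  set t := A 0 0 + A 1 1 + A 2 2 with ht
  set s := A 0 0 * A 1 1 - A 0 1 * A 1 0 + (A 0 0 * A 2 2 - A 0 2 * A 2 0) +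
    (A 1 1 * A 2 2 - A 1 2 * A 2 1) with hs
  have hd : A.det = 1 := x.2
  have hch : A * A * A = t • (A * A) - s • A + A.det • (1 : Matrix (Fin 3) (Fin 3) (ZMod 3)) := by
    rw [ht, hs, Matrix.det_fin_three]
    ext i j
    fin_cases i <;> fin_cases j <;>
      simp [Matrix.mul_apply, Fin.sum_univ_three] <;> ring
  rw [hd, one_smul] at hch
  have hk : ∀ k, A ^ k = (pw t s k).1 • (1 : Matrix (Fin 3) (Fin 3) (ZMod 3)) +
      (pw t s k).2.1 • A + (pw t s k).2.2 • (A * A) := by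
    intro k
    induction k with
    | zero => simp [pw]
    | succ k ih =>
      rw [pow_succ, ih]
      simp only [pw, add_mul, smul_mul_assoc, one_mul, hch]
      module
  have hx : ∀ k, pw t s k = (1, 0, 0) → x ^ k = 1 := fun k h => Subtype.ext (by
    have := hk k
    rw [h] at this
    simpa using this)
  exact (pw_spec t s).imp (hx _) (hx _)

open Equiv.Perm in
theorem spec_a7 (g : alternatingGroup (Fin 7)) : g ^ 12 = 1 ∨ g ^ 5 = 1 ∨ g ^ 7 = 1 := by
  have hs := (sign_of_cycleType g.1).symm.trans (mem_alternatingGroup.1 g.2)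
  have key : ∀ n, (∀ a ∈ g.1.cycleType, a ∣ n) → g ^ n = 1 := fun n hn => Subtype.ext (by
    rw [Subgroup.coe_pow, Subgroup.coe_one, ← orderOf_dvd_iff_pow_eq_one, ← lcm_cycleType,
      Multiset.lcm_dvd]
    exact fun {a} => hn a)
  have h1 := sum_cycleType_le g.1
  have h2 : ∀ a ∈ g.1.cycleType, 2 ≤ a := fun a ha => two_le_of_mem_cycleType ha
  rw [Fintype.card_fin] at h1
  by_cases h7 : 7 ∈ g.1.cycleType
  · refine .inr (.inr (key 7 fun a ha => ?_))
    obtain ⟨m, hm⟩ := Multiset.exists_cons_of_mem h7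
    rw [hm] at h1 h2 ha
    rcases Multiset.mem_cons.1 ha with rfl | ha
    · rfl
    have := h2 a (Multiset.mem_cons_of_mem ha)
    have := Multiset.single_le_sum (fun _ _ => Nat.zero_le _) a ha
    rw [Multiset.sum_cons] at h1
    omega
  by_cases h5 : 5 ∈ g.1.cycleType
  · refine .inr (.inl (key 5 fun a ha => ?_))
    obtain ⟨m, hm⟩ := Multiset.exists_cons_of_mem h5
    rw [hm] at h1 h2 ha hs
    rcases Multiset.mem_cons.1 ha with rfl | ha
    · rfl
    exfalso
    obtain ⟨m', rfl⟩ := Multiset.exists_cons_of_mem ha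
    have h3 := h2 a (by simp)
    simp only [Multiset.sum_cons] at h1
    have h4 : m' = 0 := by
      by_contra h4
      obtain ⟨c, hc⟩ := Multiset.exists_mem_of_ne_zero h4
      have := h2 c (by simp [hc])
      have := Multiset.single_le_sum (fun _ _ => Nat.zero_le _) c hc
      omega
    have h6 : a = 2 := by omega
    subst h4 h6
    revert hs
    decide
  refine .inl (key 12 fun a ha => ?_)
  have h3 := h2 a ha
  have h4 := Multiset.single_le_sum (fun _ _ => Nat.zero_le _) a ha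
  have h6 : a ≤ 7 := by omega
  interval_cases a <;> first | contradiction | norm_num

end H99.FN
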