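import Mathlib
import Cfsg.Agent.Base
import Cfsg.Agent.Lib.FrobN.Small
import Cfsg.Agent.Lib.Core.Fitting
import Cfsg.Agent.Lib.NGrp.Small
import Cfsg.Agent.Lib.MinDeg8.U3Spec
import Cfsg.Agent.Lib.M24Geom.ClsM11

/-! Frobenius' conjecture for `A₇`, `M₁₁`, `L₃(3)`, `U₃(3)`. -/

set_option autoImplicit false
open Subgroup Cfsg
open scoped MatrixGroups

namespace H99.FN

theorem fp_a7 : FP (alternatingGroup (Fin 7)) := by
  refine fp_2520 ?_ spec_a7
  have := H3.NG.card_alt 7 (by norm_num)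
  norm_num [Nat.factorial] at this ⊢
  omega

theorem fp_m11 : FP Spor.M11 := by
  have : Finite Spor.M11 := Nat.finite_of_card_ne_zero (by rw [H15.card_M11]; norm_num)
  refine fp_7920 H15.card_M11 fun x => ?_
  obtain ⟨e, he, k, -, hk⟩ := H96.Geo.M11.table.cover x.1 x.2
  have h1 : orderOf x = e.o := by
    rw [← H96.Geo.M11.table.ord e he, ← orderOf_coe, ← hk]
    exact (SemiconjBy.orderOf_eq k (by simp [SemiconjBy])).symm
  have h2 : ∀ e ∈ H96.Geo.M11.cls, e.o ∣ 24 ∨ e.o ∣ 5 ∨ e.o ∣ 11 := by decide +kernel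
  simpa only [← orderOf_dvd_iff_pow_eq_one, h1] using h2 e he

theorem fp_sl33 : FP SL(3, ZMod 3) := by
  refine fp_5616 ?_ spec_sl33
  have := H10.card_SL_fin (F := ZMod 3) 3 (by norm_num)
  rw [Nat.card_zmod, Fin.prod_univ_three] at this
  have e : (3 ^ 3 - 3 ^ ((0 : Fin 3) : ℕ)) * (3 ^ 3 - 3 ^ ((1 : Fin 3) : ℕ)) *
      (3 ^ 3 - 3 ^ ((2 : Fin 3) : ℕ)) = 11232 := by decide
  rw [e] at this
  omega

theorem fp_l33 {F : Type*} [Field F] [Fintype F] (h : Fintype.card F = 3) : FP PSL(3, F) := by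
  obtain ⟨f⟩ := H10.nonempty_ringEquiv_zmod (F := F) 3 (by rwa [Nat.card_eq_fintype_card])
  have hc : center SL(3, ZMod 3) = ⊥ := by
    rw [← Subgroup.card_eq_one, H10.card_center_SL, Nat.card_zmod]; decide
  exact FP.of_equiv ((H10.pslCongr f).trans
    ((QuotientGroup.quotientMulEquivOfEq hc).trans QuotientGroup.quotientBot)) fp_sl33

theorem fp_u33' : FP (PSU 3 H74.F9 3) := by
  have hc : Nat.card (PSU 3 H74.F9 3) = 6048 := by
    rw [Nat.card_congr H74.U33.psuEquiv.toEquiv, H74.U33.card_SU]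
  have : Finite (PSU 3 H74.F9 3) := Nat.finite_of_card_ne_zero (by rw [hc]; norm_num)
  have : Fact (Nat.Prime 3) := ⟨Nat.prime_three⟩
  have : CharP H74.F9 3 := by
    obtain ⟨p, k, hp, hc, h3, hk⟩ := H11.U.exists_char_pow H74.F9 3
    have : p = 3 :=
      (Nat.prime_dvd_prime_iff_eq hp Nat.prime_three).1 (h3 ▸ dvd_pow_self p (by omega))
    exact this ▸ hc
  refine fp_6048 hc fun x => ?_
  have h1 : orderOf x ∈ Set.range (orderOf : PSU 3 H74.F9 3 → ℕ) := ⟨x, rfl⟩
  rw [H8.U3.spectrum_odd 3 (by norm_num)] at h1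
  simp only [← orderOf_dvd_iff_pow_eq_one]
  rcases h1 with ((h | h) | h) | h
  · exact .inl (dvd_trans h (by norm_num))
  · exact .inr (.inl (dvd_trans h (by norm_num)))
  · exact .inl (dvd_trans h (by norm_num))
  · exact .inr (.inr (dvd_trans h (by norm_num)))

theorem fp_u33 {F : Type*} [Field F] [Fintype F] (h : Fintype.card F = 3 ^ 2) : FP (PSU 3 F 3) :=
  FP.of_equiv ((H3.NG.psu33_equiv h).some.trans H74.U33.psuEquiv.symm) fp_u33'

theorem frob_comm {G : Type*} [Group G] (h : IsMulCommutative G) : FrobProp G := fun n _ _ =>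
  ⟨{ carrier := {x | x ^ n = 1}
     mul_mem' := fun {a b} ha hb => by
       change (a * b) ^ n = 1
       rw [Commute.mul_pow (h.is_comm.comm a b), show a ^ n = 1 from ha, show b ^ n = 1 from hb,
         one_mul]
     one_mem' := one_pow n
     inv_mem' := fun {a} ha => by
       change a⁻¹ ^ n = 1
       rw [inv_pow, show a ^ n = 1 from ha, inv_one] }, rfl⟩

theorem ngroup_of_equiv {G G' : Type*} [Group G] [Group G'] (e : G ≃* G') (h : IsNGroup G) :
    IsNGroup G' := by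
  rintro N ⟨p, T, hp, hT, h0, rfl⟩
  have h1 := h (normalizer (T.map e.symm.toMonoidHom : Set G))
    ⟨p, _, hp, hT.map _, fun e' => h0 ((map_eq_bot_iff_of_injective _ e.symm.injective).1 e'), rfl⟩
  refine H1.isSolvable_of_map_injective (f := e.symm.toMonoidHom) e.symm.injective
    (H1.isSolvable_of_le h1 (le_normalizer_map _))

end H99.FN
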