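import Mathlib
import Cfsg.Agent.Base
import Cfsg.Agent.Lib.FrobN.Tools
import Cfsg.Agent.Lib.SL2Elt.Sylow
import Cfsg.Agent.Lib.SL2Elt.Order
import Cfsg.Agent.Lib.SL2.Borel
import Cfsg.Agent.Lib.GL.Basic

/-! Frobenius' conjecture for `L₂(q)`. -/

set_option autoImplicit false
open Subgroup Matrix H64.SL2
open scoped MatrixGroups

namespace H99.FN

theorem num_full {a b A B : ℕ} (ha : a ≤ A) (hb : b ≤ B) (ha0 : 0 < a) (hb0 : 0 < b)
    (h : a * B + b * A ≤ 2 * (a * b)) : a = A ∧ b = B := by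
  constructor <;> nlinarith

theorem l2_num1 {q d A B n a b iA iB : ℕ} (hq : 0 < q) (hd : 0 < d) (hA : d * A + 1 = q)
    (hB : d * B = q + 1) (hiA : 2 * iA = d * q * B) (hiB : 2 * iB = d * q * A)
    (ha : a ≤ A) (hb : b ≤ B) (ha0 : 0 < a) (hb0 : 0 < b)
    (hN : 1 + (q + 1) * (q - 1) + iA * (a - 1) + iB * (b - 1) ≤ n) (hn : n ≤ d * q * (a * b)) :
    d * q * A * B ≤ n := by
  obtain ⟨a, rfl⟩ : ∃ a', a = a' + 1 := ⟨a - 1, by omega⟩
  obtain ⟨b, rfl⟩ : ∃ b', b = b' + 1 := ⟨b - 1, by omega⟩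
  obtain ⟨r, rfl⟩ : ∃ r, q = r + 1 := ⟨q - 1, by omega⟩
  simp only [Nat.add_sub_cancel] at hN
  have h1 : d * (r + 1) * ((a + 1) * B + (b + 1) * A) ≤ 2 * n := by
    have e : d * (r + 1) * ((a + 1) * B + (b + 1) * A) =
        d * (r + 1) * B * a + d * (r + 1) * A * b + (r + 1) * (d * A + d * B) := by ring
    have e2 : d * A + d * B = 2 * (r + 1) := by omega
    rw [e, e2, ← hiA, ← hiB]
    nlinarith
  have h2 : (a + 1) * B + (b + 1) * A ≤ 2 * ((a + 1) * (b + 1)) := by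
    refine Nat.le_of_mul_le_mul_left (c := d * (r + 1)) ?_ (by positivity)
    nlinarith
  obtain ⟨h3, h4⟩ := num_full ha hb ha0 hb0 h2
  rw [h3, h4] at h1
  nlinarith

theorem l2_num2 {q d A B n a b iA iB u : ℕ} (hq : 4 ≤ q) (hd : 0 < d)
    (hiA : 2 * iA = d * q * B) (hiB : 2 * iB = d * q * A)
    (ha : a ≤ A) (hb : b ≤ B) (ha0 : 0 < a) (hb0 : 0 < b)
    (hN : 1 + u + iA * (a - 1) + iB * (b - 1) ≤ n) (hn : n ≤ d * (a * b)) : n ≤ d := by
  obtain ⟨a, rfl⟩ : ∃ a', a = a' + 1 := ⟨a - 1, by omega⟩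
  obtain ⟨b, rfl⟩ : ∃ b', b = b' + 1 := ⟨b - 1, by omega⟩
  simp only [Nat.add_sub_cancel] at hN
  have h1 : 2 * (d * (b + 1)) ≤ iA := by
    have : d * 4 * (b + 1) ≤ d * q * B := by gcongr
    linarith
  have h2 : 2 * (d * (a + 1)) ≤ iB := by
    have : d * 4 * (a + 1) ≤ d * q * A := by gcongr
    linarith
  have h3 : a = 0 := by
    by_contra h
    have : 2 * (d * (b + 1)) * a ≤ iA * a := by gcongr
    have : d * (b + 1) * (a + 1) ≤ d * (b + 1) * (2 * a) := by gcongr; omega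
    nlinarith
  have h4 : b = 0 := by
    by_contra h
    have : 2 * (d * (a + 1)) * b ≤ iB * b := by gcongr
    have : d * (a + 1) * (b + 1) ≤ d * (a + 1) * (2 * b) := by gcongr; omega
    nlinarith
  subst h3 h4
  simpa using hn

variable {F : Type*} [Field F] [Finite F]

theorem card_map_proj {H : Subgroup SL(2, F)} (h : center SL(2, F) ≤ H) :
    Nat.gcd 2 (Nat.card F - 1) * Nat.card (H.map (proj (F := F))) = Nat.card H := by
  have h1 := H1.card_comap_mk' (center SL(2, F)) (H.map (proj (F := F)))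
  rw [comap_map_eq_self (by rw [QuotientGroup.ker_mk']; exact h), H10.card_center_SL,
    Fintype.card_fin] at h1
  rw [h1, mul_comm]

theorem l2_torus {g : SL(2, F)} (hg : tr g ^ 2 ≠ 4) : ∃ A i : ℕ,
    Nat.gcd 2 (Nat.card F - 1) * A = Nat.card (centralizer ({g} : Set SL(2, F))) ∧
    2 * A * i = Nat.card PSL(2, F) ∧ ∀ n, i * (Nat.gcd n A - 1) ≤ (Y PSL(2, F) n A).ncard := by
  set T := centralizer ({g} : Set SL(2, F)) with hT
  have hZ : center SL(2, F) ≤ T := center_le_centralizer _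
  have h1 := card_map_proj hZ
  have h2 := card_map_proj (hZ.trans (le_normalizer (H := T)))
  have h3 := card_normalizer_centralizer hg
  have hd : 0 < Nat.gcd 2 (Nat.card F - 1) := Nat.gcd_pos_of_pos_left _ two_pos
  refine ⟨_, ((normalizer (T : Set SL(2, F))).map (proj (F := F))).index, h1, ?_, fun n => ?_⟩
  · rw [← ((normalizer (T : Set SL(2, F))).map (proj (F := F))).card_mul_index]
    congr 1
    refine Nat.eq_of_mul_eq_mul_left hd ?_
    rw [h2, h3, ← h1]; ring
  · refine ti_count _ _ ?_ n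
    rintro h _ ⟨x, hx, rfl⟩ hx1 hh
    obtain ⟨h, rfl⟩ := proj_surjective h
    have hx2 : x ∉ center SL(2, F) := fun e => hx1 (proj_eq_one_iff.2 e)
    have h4 : h * x * h⁻¹ ∈ (T.map (proj (F := F))).comap proj := by
      rw [mem_comap, map_mul, map_mul, map_inv]; exact hh
    rw [comap_map_eq_self (by rw [QuotientGroup.ker_mk']; exact hZ)] at h4
    have h5 := centralizer_eq_of_mem (not_mem_center_of_tr hg) hx hx2
    refine mem_map_of_mem _ ?_
    rw [hT, ← h5]
    exact mem_normalizer_of_conj_mem (tr_sq_ne_four_of_mem_centralizer hg hx hx2) (h5 ▸ h4)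

theorem card_unitriPSL : Nat.card (H29.unitriPSL F) = Nat.card F := by
  rw [← H10.card_unitriSL_two (F := F), H29.unitriPSL, ← H80.ncard_coe_subgroup, coe_map,
    Set.InjOn.ncard_image, H80.ncard_coe_subgroup]
  intro u hu v hv e
  rcases proj_eq_iff.1 e with h | h
  · exact h
  · have h1 := (H10.mem_unitriSL_two.1 hu).2.1
    have h2 := (H10.mem_unitriSL_two.1 hv).2.1
    have h3 : (2 : F) = 0 := by
      rw [h] at h1
      have : -(v.1 0 0) = 1 := by simpa using h1
      rw [h2] at this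
      linear_combination -this
    rw [h, neg_eq_self_of_two_eq_zero h3]

theorem l2_unip (p : ℕ) [CharP F p] {n : ℕ} (hn : p ∣ n) :
    (Nat.card F + 1) * (Nat.card F - 1) ≤ (Y PSL(2, F) n (Nat.card F)).ncard := by
  have := ti_count' (H29.unitriPSL F) (H29.borelPSL F) ?_ (n := n) ?_
  · rwa [card_unitriPSL, H29.index_borelPSL] at this
  · rintro h _ ⟨x, hx, rfl⟩ hx1 hh
    obtain ⟨h, rfl⟩ := proj_surjective h
    have h1 : H29.unitriPSL F ≤ H29.borelPSL F := by
      rw [← H29.normalizer_unitriPSL]; exact le_normalizer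
    have h2 : ((h * x * h⁻¹ : SL(2, F)) : PSL(2, F)) ∈ H29.borelPSL F := h1 hh
    exact mem_map_of_mem _ (H10.mem_borelSL_two_of_conj hx (fun e => hx1 (by rw [e, map_one]))
      (H10.mem_borelSL_two.2 (H29.mk_mem_borelPSL.1 h2)))
  · rintro _ ⟨x, hx, rfl⟩
    obtain ⟨k, rfl⟩ := hn
    have h1 := H10.mem_unitriSL_two.1 hx
    have h2 : tr x = 2 := by
      change x.1 0 0 + x.1 1 1 = 2
      rw [h1.2.1, h1.2.2]; norm_num
    rw [← map_pow, pow_mul, pow_char_eq_one_of_tr_eq_two p h2, one_pow, map_one]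

theorem fp_l2 (hq : 4 ≤ Nat.card F) : FP PSL(2, F) := by
  classical
  intro n hn hle
  have := Fintype.ofFinite F
  obtain ⟨p, hp0⟩ := CharP.exists F
  obtain ⟨f, hp, hf⟩ := FiniteField.card F p
  rw [← Nat.card_eq_fintype_card] at hf
  obtain ⟨a0, ha0, ha1⟩ : ∃ a : F, a ≠ 0 ∧ a ^ 2 ≠ 1 := by
    by_contra h
    have h1 : (Finset.univ : Finset F) ⊆ {0, 1, -1} := fun a _ => by
      by_cases h2 : a = 0
      · simp [h2]
      · have h3 : a ^ 2 = 1 := by_contra fun h3 => h ⟨a, h2, h3⟩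
        rcases sq_eq_one_iff.1 h3 with h4 | h4 <;> simp [h4]
    have h2 := (Finset.card_le_card h1).trans Finset.card_le_three
    rw [Finset.card_univ, ← Nat.card_eq_fintype_card] at h2
    omega
  have hg1 : tr (diagHom (Units.mk0 a0 ha0)) ^ 2 ≠ 4 := tr_sq_ne_four_of_diag rfl ha1
  obtain ⟨A, iA, hA1, hA2, hA3⟩ := l2_torus hg1
  rw [card_centralizer_of_split hg1 (split_of_10_eq_zero rfl)] at hA1
  obtain ⟨g2, hg2⟩ := exists_not_split (F := F)
  obtain ⟨B, iB, hB1, hB2, hB3⟩ := l2_torus (tr_sq_ne_four_of_not_split hg2)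
  rw [card_centralizer_of_not_split hg2] at hB1
  have hG := H10.card_PSL_two (F := F)
  set q := Nat.card F with hqdef
  set d := Nat.gcd 2 (q - 1) with hd
  have hd0 : 0 < d := Nat.gcd_pos_of_pos_left _ two_pos
  have hd2 : d ≤ 2 := Nat.gcd_le_left _ two_pos
  have hA0 : 0 < A := Nat.pos_of_ne_zero (by rintro rfl; omega)
  have hB0 : 0 < B := Nat.pos_of_ne_zero (by rintro rfl; omega)
  have hG' : Nat.card PSL(2, F) = d * q * A * B := by
    refine Nat.eq_of_mul_eq_mul_left hd0 ?_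
    rw [hG, ← hA1, ← hB1]; ring
  have hiA : 2 * iA = d * q * B := by
    refine Nat.eq_of_mul_eq_mul_left hA0 ?_
    rw [← mul_assoc, mul_comm A 2, hA2, hG']; ring
  have hiB : 2 * iB = d * q * A := by
    refine Nat.eq_of_mul_eq_mul_left hB0 ?_
    rw [← mul_assoc, mul_comm B 2, hB2, hG']; ring
  have cA : q.Coprime A := by
    have : q.Coprime (q - 1) := by
      rw [Nat.coprime_self_sub_right (by omega)]; simp
    exact Nat.Coprime.coprime_dvd_right (hA1 ▸ dvd_mul_left A d) this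
  have cB : q.Coprime B := by
    have : q.Coprime (q + 1) := by simp
    exact Nat.Coprime.coprime_dvd_right (hB1 ▸ dvd_mul_left B d) this
  have cAB : A.Coprime B := by
    have h1 : d = 1 ∨ d = 2 := by omega
    rcases h1 with h1 | h1
    · rw [h1] at hA1 hB1
      have h2 : B = A + 2 := by omega
      rw [h2, Nat.coprime_self_add_right]
      have : A = q - 1 := by omega
      rw [this, Nat.coprime_comm]; exact h1
    · rw [h1] at hA1 hB1
      have h2 : B = A + 1 := by omega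
      rw [h2]; simp
  have hsum := (sum3 (G := PSL(2, F)) (n := n) cA cB cAB).trans hle
  have ha0' : 0 < Nat.gcd n A := Nat.gcd_pos_of_pos_right _ hA0
  have hb0' : 0 < Nat.gcd n B := Nat.gcd_pos_of_pos_right _ hB0
  have hn1 : n ∣ Nat.gcd n d * Nat.gcd n q * Nat.gcd n A * Nat.gcd n B := by
    rw [hG'] at hn
    refine (Nat.dvd_gcd dvd_rfl hn).trans ((Nat.gcd_mul_right_dvd_mul_gcd _ _ _).trans ?_)
    refine Nat.mul_dvd_mul_right ((Nat.gcd_mul_right_dvd_mul_gcd _ _ _).trans ?_) _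
    exact Nat.mul_dvd_mul_right (Nat.gcd_mul_right_dvd_mul_gcd _ _ _) _
  have hn2 := Nat.le_of_dvd (by
    have := Nat.gcd_pos_of_pos_right n hd0
    have := Nat.gcd_pos_of_pos_right n (show 0 < q by omega)
    positivity) hn1
  have h1 := hA3 n
  have h2 := hB3 n
  have hgd : Nat.gcd n d ≤ d := Nat.gcd_le_right _ hd0
  by_cases hpn : p ∣ n
  · have h3 := l2_unip (F := F) p hpn
    rw [← hqdef] at h3
    refine ex_of_le hn (hG' ▸ l2_num1 (by omega) hd0 (by omega) hB1 hiA hiB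
      (Nat.gcd_le_right _ hA0) (Nat.gcd_le_right _ hB0) ha0' hb0' (by omega) (hn2.trans ?_))
    rw [mul_assoc]
    gcongr
    exact Nat.gcd_le_right _ (by omega)
  · have h3 : Nat.gcd n q = 1 := by
      rw [hf]
      exact Nat.Coprime.pow_right _ ((Nat.Prime.coprime_iff_not_dvd hp).2 hpn).symm
    have h4 := l2_num2 (u := (Y PSL(2, F) n q).ncard) (n := n) hq hd0 hiA hiB
      (Nat.gcd_le_right _ hA0) (Nat.gcd_le_right _ hB0) ha0' hb0' (by omega) (hn2.trans (by
        rw [h3, mul_one, mul_assoc]; gcongr))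
    have h5 : n = 1 ∨ n = 2 := by omega
    rcases h5 with h5 | h5
    · exact h5 ▸ ex_one
    · exact ex_pp (k := 1) Nat.prime_two h5 hn

end H99.FN
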