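import Mathlib
import Cfsg.Agent.Base
import Cfsg.Agent.Lib.FrobN.Tools
import Cfsg.Agent.Lib.Suzuki.Tori

/-! Frobenius' conjecture for `Sz(q)`. -/

set_option autoImplicit false
open Subgroup

namespace H99.FN

theorem num_full3 {a b e A B C : ℕ} (ha : a ≤ A) (hb : b ≤ B) (he : e ≤ C) (ha0 : 0 < a)
    (hb0 : 0 < b) (he0 : 0 < e) (h : 2 * (a * B * C) + b * A * C + e * A * B ≤ 4 * (a * b * e)) :
    a = A ∧ b = B ∧ e = C := by
  have h1 : a * b * e ≤ a * B * C := by gcongr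
  have h2 : a * b * e ≤ b * A * C := by rw [mul_comm a b]; gcongr
  have h3 : a * b * e ≤ e * A * B := by
    rw [mul_comm _ e, ← mul_assoc]; gcongr
  have h4 : b = B := by
    by_contra h5
    have : a * (b + 1) * e ≤ a * B * C := by gcongr; omega
    have : 0 < a * e := by positivity
    nlinarith
  have h5 : e = C := by
    by_contra h5
    have : a * b * (e + 1) ≤ a * B * C := by gcongr; omega
    have : 0 < a * b := by positivity
    nlinarith
  refine ⟨?_, h4, h5⟩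
  by_contra h6
  have : b * (a + 1) * e ≤ b * A * C := by gcongr; omega
  have : 0 < b * e := by positivity
  nlinarith

theorem sz_num1 {Q A B C n a b e iA iB iC : ℕ} (hQ : 0 < Q) (h0 : 2 * (B * C) + A * C + A * B = 4 * Q)
    (hiA : 2 * iA = Q * B * C) (hiB : 4 * iB = Q * A * C) (hiC : 4 * iC = Q * A * B)
    (ha : a ≤ A) (hb : b ≤ B) (he : e ≤ C) (ha0 : 0 < a) (hb0 : 0 < b) (he0 : 0 < e)
    (hN : 1 + (Q + 1) * (Q - 1) + iA * (a - 1) + iB * (b - 1) + iC * (e - 1) ≤ n)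
    (hn : n ≤ Q * (a * b * e)) : Q * A * B * C ≤ n := by
  obtain ⟨a, rfl⟩ : ∃ a', a = a' + 1 := ⟨a - 1, by omega⟩
  obtain ⟨b, rfl⟩ : ∃ b', b = b' + 1 := ⟨b - 1, by omega⟩
  obtain ⟨e, rfl⟩ : ∃ b', e = b' + 1 := ⟨e - 1, by omega⟩
  obtain ⟨r, rfl⟩ : ∃ r, Q = r + 1 := ⟨Q - 1, by omega⟩
  simp only [Nat.add_sub_cancel] at hN
  have h1 : (r + 1) * (2 * ((a + 1) * B * C) + (b + 1) * A * C + (e + 1) * A * B) ≤ 4 * n := by
    have e1 : (r + 1) * (2 * ((a + 1) * B * C) + (b + 1) * A * C + (e + 1) * A * B) =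
        2 * ((r + 1) * B * C) * a + (r + 1) * A * C * b + (r + 1) * A * B * e +
          (r + 1) * (2 * (B * C) + A * C + A * B) := by ring
    rw [e1, h0, ← hiA, ← hiB, ← hiC]
    nlinarith
  have h2 : 2 * ((a + 1) * B * C) + (b + 1) * A * C + (e + 1) * A * B ≤
      4 * ((a + 1) * (b + 1) * (e + 1)) := by
    refine Nat.le_of_mul_le_mul_left (c := r + 1) ?_ (by positivity)
    nlinarith
  obtain ⟨h3, h4, h5⟩ := num_full3 ha hb he ha0 hb0 he0 h2
  rw [h3, h4, h5] at h1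
  nlinarith

theorem sz_num2 {Q A B C n a b e iA iB iC u : ℕ} (hQ : 16 ≤ Q)
    (hiA : 2 * iA = Q * B * C) (hiB : 4 * iB = Q * A * C) (hiC : 4 * iC = Q * A * B)
    (ha : a ≤ A) (hb : b ≤ B) (he : e ≤ C) (ha0 : 0 < a) (hb0 : 0 < b) (he0 : 0 < e)
    (hN : 1 + u + iA * (a - 1) + iB * (b - 1) + iC * (e - 1) ≤ n)
    (hn : n ≤ 2 * (a * b * e)) : n ≤ 2 := by
  obtain ⟨a, rfl⟩ : ∃ a', a = a' + 1 := ⟨a - 1, by omega⟩
  obtain ⟨b, rfl⟩ : ∃ b', b = b' + 1 := ⟨b - 1, by omega⟩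
  obtain ⟨e, rfl⟩ : ∃ b', e = b' + 1 := ⟨e - 1, by omega⟩
  simp only [Nat.add_sub_cancel] at hN
  have h1 : 4 * ((b + 1) * (e + 1)) ≤ iA := by
    have : 16 * (b + 1) * (e + 1) ≤ Q * B * C := by gcongr
    linarith
  have h2 : 4 * ((a + 1) * (e + 1)) ≤ iB := by
    have : 16 * (a + 1) * (e + 1) ≤ Q * A * C := by gcongr
    linarith
  have h2' : 4 * ((a + 1) * (b + 1)) ≤ iC := by
    have : 16 * (a + 1) * (b + 1) ≤ Q * A * B := by gcongr
    linarith
  have h3 : a = 0 := by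
    by_contra h
    have : 4 * ((b + 1) * (e + 1)) * a ≤ iA * a := by gcongr
    have : (b + 1) * (e + 1) * (a + 1) ≤ (b + 1) * (e + 1) * (2 * a) := by gcongr; omega
    nlinarith
  have h4 : b = 0 := by
    by_contra h
    have : 4 * ((a + 1) * (e + 1)) * b ≤ iB * b := by gcongr
    have : (a + 1) * (e + 1) * (b + 1) ≤ (a + 1) * (e + 1) * (2 * b) := by gcongr; omega
    nlinarith
  have h5 : e = 0 := by
    by_contra h
    have : 4 * ((a + 1) * (b + 1)) * e ≤ iC * e := by gcongr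
    have : (a + 1) * (b + 1) * (e + 1) ≤ (a + 1) * (b + 1) * (2 * e) := by gcongr; omega
    nlinarith
  subst h3 h4 h5
  simpa using hn

open H14.Sz

theorem fp_sz {G : Type*} [Group G] {F : Type*} [Field F] [Fintype F] {m : ℕ} [hz : SzF F m]
    (S : Model G F m) : FP G := by
  intro n hn hle
  have := S.finite
  obtain ⟨T, T', hT, hT', hd, hD⟩ := S.exists_two_tori
  obtain ⟨-, -, h1, h2⟩ := Model.two_tori_numbers hT hT' hd hD
  have cBC := hT.coprime_of_disjoint hd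
  have hG := S.card_G
  have hU := S.card_U
  have hH := S.card_H
  have hq : 8 ≤ Fintype.card F := by
    rw [hz.hF]
    exact le_trans (by norm_num) (Nat.pow_le_pow_right (n := 2) (by norm_num)
      (show 3 ≤ 2 * m + 1 by have := hz.hm; omega))
  have c1 := coprime_q_sq_add_one_sub_one F
  have c2 := coprime_q_sq_add_one_q_sq F
  have hA3 := ti_count S.H _ S.TI_H n
  have hB3 := ti_count T _ hT.TI n
  have hC3 := ti_count T' _ hT'.TI n
  have hA2 := (normalizer (S.H : Set G)).card_mul_index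
  have hB2 := (normalizer (T : Set G)).card_mul_index
  have hC2 := (normalizer (T' : Set G)).card_mul_index
  have hU2 := (normalizer (S.U : Set G)).card_mul_index
  rw [S.card_normalizer_H] at hA2
  rw [hT.card_normalizer] at hB2
  rw [hT'.card_normalizer] at hC2
  rw [hH] at hA3
  set q := Fintype.card F with hqdef
  set B := Nat.card T
  set C := Nat.card T'
  obtain ⟨A, hA⟩ : ∃ A, q = A + 1 := ⟨q - 1, by omega⟩
  have hA' : q - 1 = A := by omega
  rw [hA'] at hA2 hA3 hG c1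
  have hA0 : 0 < A := by omega
  have hB0 : 0 < B := Nat.card_pos
  have hC0 : 0 < C := Nat.card_pos
  have hG' : Nat.card G = q ^ 2 * A * B * C := by rw [hG, ← h1]; ring
  have hiA : 2 * (normalizer (S.H : Set G)).index = q ^ 2 * B * C := by
    refine Nat.eq_of_mul_eq_mul_left hA0 ?_
    rw [← mul_assoc, mul_comm A 2, hA2, hG']; ring
  have hiB : 4 * (normalizer (T : Set G)).index = q ^ 2 * A * C := by
    refine Nat.eq_of_mul_eq_mul_left hB0 ?_
    rw [← mul_assoc, mul_comm B 4, hB2, hG']; ring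
  have hiC : 4 * (normalizer (T' : Set G)).index = q ^ 2 * A * B := by
    refine Nat.eq_of_mul_eq_mul_left hC0 ?_
    rw [← mul_assoc, mul_comm C 4, hC2, hG']; ring
  have cA : (q ^ 2).Coprime A := Nat.Coprime.pow_left _ (by rw [hA]; simp)
  rw [← h1] at c1 c2
  have cB : (q ^ 2).Coprime B := (Nat.Coprime.coprime_mul_right c2).symm
  have cC : (q ^ 2).Coprime C := (Nat.Coprime.coprime_mul_left c2).symm
  have cAB : A.Coprime B := (Nat.Coprime.coprime_mul_right c1).symm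
  have cAC : A.Coprime C := (Nat.Coprime.coprime_mul_left c1).symm
  have hsum := (sum4 (G := G) (n := n) cA cB cC cAB cAC cBC).trans hle
  have ha0 : 0 < Nat.gcd n A := Nat.gcd_pos_of_pos_right _ hA0
  have hb0 : 0 < Nat.gcd n B := Nat.gcd_pos_of_pos_right _ hB0
  have he0 : 0 < Nat.gcd n C := Nat.gcd_pos_of_pos_right _ hC0
  have hn1 : n ∣ Nat.gcd n (q ^ 2) * Nat.gcd n A * Nat.gcd n B * Nat.gcd n C := by
    rw [hG'] at hn
    refine (Nat.dvd_gcd dvd_rfl hn).trans ((Nat.gcd_mul_right_dvd_mul_gcd _ _ _).trans ?_)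
    refine Nat.mul_dvd_mul_right ((Nat.gcd_mul_right_dvd_mul_gcd _ _ _).trans ?_) _
    exact Nat.mul_dvd_mul_right (Nat.gcd_mul_right_dvd_mul_gcd _ _ _) _
  have hQ0 : 0 < q ^ 2 := by positivity
  have hn2 := Nat.le_of_dvd (by
    have := Nat.gcd_pos_of_pos_right n hQ0
    positivity) hn1
  rw [mul_assoc, mul_assoc, ← mul_assoc (Nat.gcd n A)] at hn2
  by_cases h4 : 4 ∣ n
  · have h3 := ti_count' S.U _ S.TI_U (n := n) (fun x hx => by
      obtain ⟨k, rfl⟩ := h4
      rw [pow_mul, S.pow_four_of_mem_U hx, one_pow])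
    have h5 : (normalizer (S.U : Set G)).index = q ^ 2 + 1 := by
      rw [S.normalizer_U]; exact S.index_B
    rw [h5, hU] at h3
    refine ex_of_le hn (hG' ▸ sz_num1 hQ0 ?_ hiA hiB hiC (Nat.gcd_le_right _ hA0)
      (Nat.gcd_le_right _ hB0) (Nat.gcd_le_right _ hC0) ha0 hb0 he0 (by omega) (hn2.trans ?_))
    · have : A * C + A * B = A * (B + C) := by ring
      rw [add_assoc, this, h1, h2, hA]; ring
    · exact Nat.mul_le_mul_right _ (Nat.gcd_le_right _ hQ0)
  · have h3 : Nat.gcd n (q ^ 2) ≤ 2 := by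
      have h5 : Nat.gcd n (q ^ 2) ∣ 2 ^ ((2 * m + 1) * 2) := by
        rw [pow_mul, ← hz.hF]; exact Nat.gcd_dvd_right _ _
      obtain ⟨k, -, hk⟩ := (Nat.dvd_prime_pow Nat.prime_two).1 h5
      rcases Nat.lt_or_ge k 2 with h6 | h6
      · rw [hk]; interval_cases k <;> norm_num
      · exact absurd (((pow_dvd_pow 2 h6).trans hk.symm.dvd).trans (Nat.gcd_dvd_left _ _)) h4
    have h5 := sz_num2 (u := (Y G n (q ^ 2)).ncard) (n := n)
      (le_trans (by norm_num) (Nat.pow_le_pow_left hq 2)) hiA hiB hiC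
      (Nat.gcd_le_right _ hA0) (Nat.gcd_le_right _ hB0) (Nat.gcd_le_right _ hC0) ha0 hb0 he0
      (by omega) (hn2.trans (Nat.mul_le_mul_right _ h3))
    have h6 : n = 1 ∨ n = 2 := by omega
    rcases h6 with h6 | h6
    · exact h6 ▸ ex_one
    · exact ex_pp (k := 1) Nat.prime_two h6 hn

end H99.FN
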