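import Mathlib
import Cfsg.Agent.Base
import Cfsg.Agent.Lib.FrobN.Small
import Cfsg.Agent.Lib.Core.Fitting

/-! Frobenius' conjecture for an N-group with the order and some local data of the Tits group. -/

set_option autoImplicit false
open Subgroup Cfsg

namespace H99.FN

variable {G : Type*} [Group G] [Finite G]

theorem pp_bound {p a : ℕ} (hp : p.Prime) (h : p ^ a ∣ 17971200) :
    a = 0 ∨ (p = 2 ∧ a ≤ 11) ∨ (p = 3 ∧ a ≤ 3) ∨ (p = 5 ∧ a ≤ 2) ∨ (p = 13 ∧ a ≤ 1) := by
  rcases Nat.eq_zero_or_pos a with h0 | h0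
  · exact .inl h0
  right
  have h1 : p ∣ 2 ^ 11 * 3 ^ 3 * 5 ^ 2 * 13 := (dvd_pow_self p h0.ne').trans h
  have key : ∀ q k : ℕ, p = q → ¬ q ^ (k + 1) ∣ 17971200 → p = q ∧ a ≤ k := by
    rintro q k rfl h2
    refine ⟨rfl, ?_⟩
    by_contra h3
    exact h2 ((pow_dvd_pow p (by omega)).trans h)
  rcases (Nat.Prime.dvd_mul hp).1 h1 with h2 | h2
  · rcases (Nat.Prime.dvd_mul hp).1 h2 with h2 | h2
    · rcases (Nat.Prime.dvd_mul hp).1 h2 with h2 | h2
      · exact .inl (key 2 11 ((Nat.prime_dvd_prime_iff_eq hp Nat.prime_two).1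
          (hp.dvd_of_dvd_pow h2)) (by norm_num))
      · exact .inr (.inl (key 3 3 ((Nat.prime_dvd_prime_iff_eq hp Nat.prime_three).1
          (hp.dvd_of_dvd_pow h2)) (by norm_num)))
    · exact .inr (.inr (.inl (key 5 2 ((Nat.prime_dvd_prime_iff_eq hp Nat.prime_five).1
        (hp.dvd_of_dvd_pow h2)) (by norm_num))))
  · exact .inr (.inr (.inr (key 13 1 ((Nat.prime_dvd_prime_iff_eq hp (by norm_num)).1 h2)
      (by norm_num))))

theorem isP_zp {p : ℕ} {x : G} (hx : orderOf x = p) : IsPGroup p (zpowers x) :=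
  IsPGroup.of_card (n := 1) (by rw [Nat.card_zpowers, hx, pow_one])

theorem fit [Group.IsSolvable G] (hG : Nat.card G ∣ 17971200) {x w : G} (hx : orderOf x = 13)
    (hw : orderOf w = 3) (hxw : w ∈ centralizer ({x} : Set G)) : (zpowers x).Normal := by
  have h13 : Nat.Prime 13 := by norm_num
  have h1 : ∀ p : ℕ, p.Prime → pCore p G ≤ centralizer {x} := by
    intro p hp
    have := Fact.mk hp
    have hQ : IsPGroup p (pCore p G) := H1.isPGroup_pCore
    obtain ⟨a, ha⟩ := IsPGroup.iff_card.1 hQ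
    obtain ⟨b, hb⟩ := IsPGroup.iff_card.1 (hQ.to_le (inf_le_left : pCore p G ⊓ centralizer {x} ≤ _))
    have h2 := card_modEq_of_norm h13 (hx ▸ pow_orderOf_eq_one x) (Q := pCore p G)
      (le_normalizer_of_normal (mem_top x))
    have h3 : b ≤ a := by
      rw [← Nat.pow_dvd_pow_iff_le_right hp.one_lt, ← ha, ← hb]
      exact card_dvd_of_le inf_le_left
    have h4 : a = b := by
      rw [ha, hb] at h2
      unfold Nat.ModEq at h2
      rcases pp_bound hp (ha ▸ (card_subgroup_dvd_card _).trans hG) with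
        h | ⟨rfl, h⟩ | ⟨rfl, h⟩ | ⟨rfl, h⟩ | ⟨rfl, h⟩
      · omega
      · interval_cases a <;> interval_cases b <;> first | rfl | omega
      · have h5 : ¬ (a = 3 ∧ b = 0) := by
          rintro ⟨rfl, rfl⟩
          obtain ⟨c, hc⟩ := IsPGroup.iff_card.1 (hQ.to_sup_of_normal_left (isP_zp hw))
          have h6 := pp_bound hp (hc ▸ (card_subgroup_dvd_card _).trans hG)
          have h7 : pCore 3 G = pCore 3 G ⊔ zpowers w := eq_of_le_of_card_ge le_sup_left (by
            rw [ha, hc]; exact Nat.pow_le_pow_right (by norm_num) (by omega))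
          have h8 : w ∈ pCore 3 G ⊓ centralizer {x} :=
            ⟨h7 ▸ mem_sup_right (mem_zpowers w), hxw⟩
          have h9 := H1.orderOf_dvd_card_of_mem h8
          rw [hb, hw] at h9
          norm_num at h9
        interval_cases a <;> interval_cases b <;> first | rfl | omega
      · interval_cases a <;> interval_cases b <;> first | rfl | omega
      · interval_cases a <;> interval_cases b <;> first | rfl | omega
    have h5 := eq_of_le_of_card_ge (inf_le_left : pCore p G ⊓ centralizer {x} ≤ _)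
      (by rw [ha, hb, h4])
    exact h5 ▸ inf_le_right
  have h2 : x ∈ fittingSubgroup G := by
    refine H1.centralizer_fitting_le (mem_centralizer_iff.2 fun y hy => ?_)
    have : fittingSubgroup G ≤ centralizer {x} := by
      rw [H1.fitting_eq_iSup_pCore]; exact iSup_le fun p => h1 p p.2
    exact mem_centralizer_singleton_iff.1 (this hy)
  have := Fact.mk h13
  have h3 := H1.le_pCore_of_le_fitting (isP_zp hx) (zpowers_le.2 h2)
  obtain ⟨a, ha⟩ := IsPGroup.iff_card.1 (H1.isPGroup_pCore : IsPGroup 13 (pCore 13 G))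
  have h4 := pp_bound h13 (ha ▸ (card_subgroup_dvd_card _).trans hG)
  rw [eq_of_le_of_card_ge h3 (by
    rw [ha, Nat.card_zpowers, hx]
    exact (Nat.pow_le_pow_right (by norm_num) (show a ≤ 1 by omega)).trans (by norm_num))]
  infer_instance

theorem sq_dvd_cent {p : ℕ} (hp : p.Prime) (h : p ^ 2 ∣ Nat.card G) {y : G} (hy : orderOf y = p) :
    p ^ 2 ∣ Nat.card (centralizer ({y} : Set G)) := by
  have := Fact.mk hp
  obtain ⟨K, hK, hle⟩ := Sylow.exists_subgroup_card_pow_succ (n := 1) h (H := zpowers y)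
    (by rw [Nat.card_zpowers, hy, pow_one])
  have hc := IsPGroup.isMulCommutative_of_card_eq_prime_sq hK
  rw [← hK]
  refine card_dvd_of_le fun k hk => mem_centralizer_singleton_iff.2 ?_
  exact congrArg Subtype.val (hc.is_comm.comm ⟨k, hk⟩ ⟨y, hle (mem_zpowers y)⟩)

theorem fit' (hN : IsNGroup G) (hG : Nat.card G = 17971200) {x w y : G} {p : ℕ} (hp : p.Prime)
    (hx : orderOf x = 13) (hw : orderOf w = 3) (hy : orderOf y = p) (h2 : p ^ 2 ∣ 17971200)
    (hxw : w ∈ centralizer ({x} : Set G)) (hxy : x ∈ centralizer ({y} : Set G))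
    (hwy : w ∈ centralizer ({y} : Set G)) :
    p ^ 2 ∣ Nat.card (normalizer (zpowers x : Set G)) := by
  have hs : Group.IsSolvable (centralizer ({y} : Set G)) := by
    refine H1.isSolvable_of_le (hN (normalizer (zpowers y : Set G))
      ⟨p, _, hp, isP_zp hy, fun e => ?_, rfl⟩) (cent_zpowers y ▸ centralizer_le_normalizer _)
    rw [zpowers_eq_bot.1 e, orderOf_one] at hy
    exact hp.one_lt.ne hy
  have h1 := fit (G := centralizer ({y} : Set G)) (hG ▸ card_subgroup_dvd_card _)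
    (x := ⟨x, hxy⟩) (w := ⟨w, hwy⟩) (by rw [← hx, ← orderOf_coe]) (by rw [← hw, ← orderOf_coe])
    (mem_centralizer_singleton_iff.2 (Subtype.ext (mem_centralizer_singleton_iff.1 hxw)))
  refine (sq_dvd_cent hp (hG ▸ h2) hy).trans (card_dvd_of_le fun g hg => ?_)
  refine mem_normalizer_fintype fun n hn => ?_
  obtain ⟨k, rfl⟩ := mem_zpowers_iff.1 hn
  obtain ⟨l, hl⟩ := mem_zpowers_iff.1 (h1.conj_mem _ (mem_zpowers _) ⟨g, hg⟩)
  have h3 : x ^ l = g * x * g⁻¹ := congrArg Subtype.val hl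
  rw [← conj_zpow, ← h3]
  exact zpow_mem (zpow_mem (mem_zpowers x) l) k

theorem cc13 (hN : IsNGroup G) (hG : Nat.card G = 17971200) {x : G} (hx : orderOf x = 13)
    (h26 : ∀ j : G, orderOf j = 2 → j ∉ centralizer ({x} : Set G)) :
    centralizer ({x} : Set G) ≤ zpowers x := by
  have h13 : Nat.Prime 13 := by norm_num
  obtain ⟨e, h1, h2, h3⟩ := norm_data (m := 1382400) h13 hG (by norm_num) hx
  have hxC : x ∈ centralizer ({x} : Set G) := mem_centralizer_singleton_iff.2 rfl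
  obtain ⟨c, hc⟩ : 13 ∣ Nat.card (centralizer ({x} : Set G)) :=
    hx ▸ H1.orderOf_dvd_card_of_mem hxC
  have h4 := (normalizer (zpowers x : Set G)).card_mul_index
  rw [hc] at h3
  rw [h3, hG] at h4
  have cau : ∀ p : ℕ, p.Prime → p ∣ c → ∃ y ∈ centralizer ({x} : Set G), orderOf y = p := by
    intro p hp h
    have := Fact.mk hp
    obtain ⟨y, hy⟩ := exists_prime_orderOf_dvd_card' (G := centralizer ({x} : Set G)) p
      (hc ▸ h.mul_left 13)
    exact ⟨y, y.2, by rw [← hy, orderOf_coe]⟩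
  have h5 : ¬ 2 ∣ c := fun h => by
    obtain ⟨y, hy, hy'⟩ := cau 2 Nat.prime_two h
    exact h26 y hy' hy
  set i := (normalizer (zpowers x : Set G)).index with hi
  have h6 : c * e * i = 1382400 := by linarith
  have h7 : c ∣ 675 := by
    have : c ∣ 2 ^ 11 * 675 := ⟨e * i, by rw [← mul_assoc, h6]; norm_num⟩
    exact (Nat.Coprime.pow_right 11
      ((Nat.Prime.coprime_iff_not_dvd Nat.prime_two).2 h5).symm).dvd_of_dvd_mul_left this
  have key : ∀ c ∈ Nat.divisors 675, ∀ e ∈ Nat.divisors 12, 1382400 % (c * e) = 0 →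
      1382400 / (c * e) % 13 = 1 → c = 1 ∨ (c = 3 ∧ e = 2) ∨ (c = 15 ∧ e = 3) ∨ (c = 45 ∧ e = 1) := by
    decide +kernel
  have h8 : 0 < c * e := Nat.pos_of_ne_zero fun h => by rw [h] at h6; omega
  have h9 := key c (Nat.mem_divisors.2 ⟨h7, by norm_num⟩) e (Nat.mem_divisors.2 ⟨h1, by norm_num⟩)
    (by rw [← h6, Nat.mul_mod_right]) (by rw [← h6, Nat.mul_div_cancel_left _ h8]; exact h2)
  rcases h9 with rfl | h9
  · exact (eq_of_le_of_card_ge (zpowers_le.2 hxC) (by rw [hc, Nat.card_zpowers, hx])).ge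
  exfalso
  obtain ⟨w, hw, hw'⟩ := cau 3 Nat.prime_three (by omega)
  have comm : ∀ {a b : G}, a ∈ centralizer ({b} : Set G) → b ∈ centralizer ({a} : Set G) :=
    fun h => mem_centralizer_singleton_iff.2 (mem_centralizer_singleton_iff.1 h).symm
  rcases h9 with ⟨rfl, rfl⟩ | h9
  · have := fit' hN hG Nat.prime_three hx hw' hw' (by norm_num) hw (comm hw)
      (mem_centralizer_singleton_iff.2 rfl)
    rw [h3] at this
    norm_num at this
  obtain ⟨y, hy, hy'⟩ := cau 5 Nat.prime_five (by omega)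
  have hwy : w ∈ centralizer ({y} : Set G) := by
    obtain ⟨m, hm, hm'⟩ : ∃ m, 13 * c = 5 * m ∧ m ∣ 117 := by
      rcases h9 with ⟨rfl, -⟩ | ⟨rfl, -⟩
      exacts [⟨39, by norm_num, by norm_num⟩, ⟨117, by norm_num, by norm_num⟩]
    have hy2 : orderOf (⟨y, hy⟩ : centralizer ({x} : Set G)) = 5 := by rw [← hy', ← orderOf_coe]
    obtain ⟨f, k1, k2, k3⟩ := norm_data (G := centralizer ({x} : Set G)) Nat.prime_five
      (hc.trans hm) (fun h => absurd (h.trans hm') (by norm_num)) hy2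
    have k4 := (normalizer (zpowers (⟨y, hy⟩ : centralizer ({x} : Set G)) :
      Set (centralizer ({x} : Set G)))).card_mul_index
    obtain ⟨d, hd⟩ : 5 ∣ Nat.card (centralizer ({(⟨y, hy⟩ : centralizer ({x} : Set G))} :
        Set (centralizer ({x} : Set G)))) :=
      hy2 ▸ H1.orderOf_dvd_card_of_mem (mem_centralizer_singleton_iff.2 rfl)
    rw [k3, hd, hc, hm] at k4
    set j := (normalizer (zpowers (⟨y, hy⟩ : centralizer ({x} : Set G)) :
      Set (centralizer ({x} : Set G)))).index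
    have k5 : d * f * j = m := by linarith
    have k6 : j ∣ 117 := dvd_trans ⟨d * f, by rw [← k5]; ring⟩ hm'
    have k7 : f ∣ 117 := dvd_trans ⟨d * j, by rw [← k5]; ring⟩ hm'
    have k8 : f = 1 := Nat.eq_one_of_dvd_coprimes (by norm_num : Nat.Coprime 4 117) k1 k7
    have key2 : ∀ j ∈ Nat.divisors 117, j % 5 = 1 → j = 1 := by decide +kernel
    have k9 := key2 j (Nat.mem_divisors.2 ⟨k6, by norm_num⟩) k2
    rw [k8, k9] at k5
    have k10 := eq_top_of_card_eq _ (hd.trans (by rw [hc, hm, ← k5]; ring))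
    have k11 : (⟨w, hw⟩ : centralizer ({x} : Set G)) ∈ centralizer
        ({(⟨y, hy⟩ : centralizer ({x} : Set G))} : Set (centralizer ({x} : Set G))) :=
      k10 ▸ mem_top _
    exact mem_centralizer_singleton_iff.2
      (congrArg Subtype.val (mem_centralizer_singleton_iff.1 k11))
  have := fit' hN hG Nat.prime_five hx hw' hy' (by norm_num) hw (comm hy) hwy
  rw [h3] at this
  rcases h9 with ⟨rfl, rfl⟩ | ⟨rfl, rfl⟩ <;> norm_num at this

theorem dvd_of_not_pow_dvd {p k j M a : ℕ} (hp : p.Prime) (h : a ∣ p ^ k * M)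
    (h' : ¬ p ^ (j + 1) ∣ a) : a ∣ p ^ j * M := by
  obtain ⟨a1, a2, h1, h2, rfl⟩ := Nat.dvd_mul.1 h
  obtain ⟨i, -, rfl⟩ := (Nat.dvd_prime_pow hp).1 h1
  refine Nat.mul_dvd_mul (pow_dvd_pow p ?_) h2
  by_contra h3
  exact h' ((pow_dvd_pow p (by omega)).mul_right a2)

theorem card_le_add (n : ℕ) (Z : Set G) (h : ∀ y, y ∉ Z → y ^ n = 1) :
    Nat.card G ≤ {x : G | x ^ n = 1}.ncard + Z.ncard := by
  rw [← Set.ncard_univ]
  refine le_trans (Set.ncard_le_ncard fun y _ => ?_) (Set.ncard_union_le _ _)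
  by_cases hy : y ∈ Z
  exacts [.inr hy, .inl (h y hy)]

theorem fp_tits_abs [IsSimpleGroup G] (hG : ¬ IsMulCommutative G) (hN : IsNGroup G)
    (hc : Nat.card G = 17971200)
    (h26 : ∀ x j : G, orderOf x = 13 → orderOf j = 2 → j ∉ centralizer ({x} : Set G))
    (h16 : ∀ y : G, ¬ 2 ^ (9 + 1) ∣ orderOf y) (hinv : 1755 ≤ {j : G | j ^ 2 = 1}.ncard)
    (h10 : ∃ y : G, y ^ 10 = 1 ∧ Nat.card (centralizer ({y} : Set G)) ≤ 40) : FP G := by
  intro n hn hle
  have hNn := le_antisymm hle (ncard_ge hn)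
  have h13 : Nat.Prime 13 := by norm_num
  have := Fact.mk h13
  obtain ⟨x, hx⟩ := exists_prime_orderOf_dvd_card' (G := G) 13 (by rw [hc]; norm_num)
  have hC := cc13 hN hc hx (fun j => h26 x j hx)
  have hord : ∀ y : G, orderOf y ∣ 2 ^ 9 * 8775 := fun y =>
    dvd_of_not_pow_dvd (k := 11) Nat.prime_two ((orderOf_dvd_natCard y).trans hc.dvd) (h16 y)
  by_cases h : 13 ∣ n
  · obtain ⟨e, i, b1, b2, b3, b4⟩ := cc_count (m := 1382400) h13 hc (by norm_num) hx hC
    have hi : i = 230400 := by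
      have := Nat.le_of_dvd (by norm_num) b1
      unfold Nat.ModEq at b2
      interval_cases e <;> omega
    subst hi
    have s := sum1 (G := G) (n := n) (A := 13)
    have f3 := b4 n h
    have m3 := mp hG (p := 3) (k := 2) (m := 665600) Nat.prime_three hc (by norm_num)
    have m5 := mp hG (p := 5) (k := 1) (m := 718848) Nat.prime_five hc (by norm_num)
    have g2 : 2 ^ 9 * 8775 ∣ n → Nat.card G ≤ n := fun h1 =>
      (card_le_of_all fun y => orderOf_dvd_iff_pow_eq_one.1 ((hord y).trans h1)).trans hle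
    have g3 : 3 ^ 2 * 166400 ∣ n → 2 * 17971200 ≤ 3 * n := fun h1 => by
      have := card_le_add n {y : G | 3 ^ (2 + 1) ∣ orderOf y} fun y hy =>
        orderOf_dvd_iff_pow_eq_one.1 ((dvd_of_not_pow_dvd (k := 3) Nat.prime_three
          ((hord y).trans (by norm_num)) hy).trans h1)
      omega
    have g5 : 5 ^ 1 * 179712 ∣ n → 3 * 17971200 ≤ 5 * n := fun h1 => by
      have := card_le_add n {y : G | 5 ^ (1 + 1) ∣ orderOf y} fun y hy =>
        orderOf_dvd_iff_pow_eq_one.1 ((dvd_of_not_pow_dvd (k := 2) Nat.prime_five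
          ((hord y).trans (by norm_num)) hy).trans h1)
      omega
    obtain ⟨m, hm⟩ := hc ▸ hn
    have h1 : m ≤ 6 := by
      by_contra h1
      have : n * 7 ≤ n * m := Nat.mul_le_mul_left _ (by omega)
      omega
    refine ex_of_le hn ?_
    interval_cases m <;> omega
  · have f1 := cc_modEq h13 hx hC h
    rw [hNn] at f1
    have f2 : 10 ∣ n → 449280 ≤ n := fun h1 => by
      obtain ⟨y, hy, hy'⟩ := h10
      have h2 := (centralizer ({y} : Set G)).card_mul_index
      rw [← H79.ncard_isConj_eq_index, hc] at h2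
      have h3 : {z : G | IsConj y z}.ncard ≤ n := le_trans (Set.ncard_le_ncard fun z hz => by
        obtain ⟨g, rfl⟩ := isConj_iff.1 hz
        change _ ^ n = 1
        rw [conj_pow, pow_of_dvd hy h1]; simp) hle
      nlinarith
    have f3 : 2 ∣ n → 1755 ≤ n := fun h1 =>
      hinv.trans ((Set.ncard_le_ncard fun z hz => pow_of_dvd hz h1).trans hle)
    have h1 : n ∣ 2 ^ 11 * 675 := by
      refine ((Nat.Prime.coprime_iff_not_dvd h13).2 h).symm.dvd_of_dvd_mul_left ?_
      exact hn.trans hc.dvd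
    obtain ⟨a1, d, h2, h3, rfl⟩ := Nat.dvd_mul.1 h1
    obtain ⟨a, ha, rfl⟩ := (Nat.dvd_prime_pow Nat.prime_two).1 h2
    have key : ∀ a ∈ Finset.range 12, ∀ d ∈ Nat.divisors 675, 2 ^ a * d % 13 = 1 →
        (10 ∣ 2 ^ a * d → 449280 ≤ 2 ^ a * d) → (2 ∣ 2 ^ a * d → 1755 ≤ 2 ^ a * d) →
        2 ^ a * d = 1 ∨ 2 ^ a * d = 3 ^ 3 := by decide +kernel
    rcases key a (Finset.mem_range.2 (by omega)) d (Nat.mem_divisors.2 ⟨h3, by norm_num⟩) f1 f2 f3
      with h4 | h4
    · exact h4 ▸ ex_one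
    · exact ex_pp Nat.prime_three h4 hn

end H99.FN
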