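import Mathlib
import Cfsg.Agent.Base
import Cfsg.Agent.Lib.FrobN.TitsAbs
import Cfsg.Agent.Lib.NGrp.Tits

/-! Frobenius' conjecture for a simple N-group with the 2-local structure of the Tits group. -/

set_option autoImplicit false
open Subgroup Cfsg H22 H10.Tits

namespace H99.FN

variable {G : Type*} [Group G] [Finite G]

theorem exists_conj_mem {p : ℕ} (hp : p.Prime) {H : Subgroup G} (hH : ¬ p ∣ H.index) {y : G} {k : ℕ}
    (hy : orderOf y = p ^ k) : ∃ g : G, g⁻¹ * y * g ∈ H := by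
  have := Fact.mk hp
  have h1 : IsPGroup p (zpowers y) := IsPGroup.of_card (by rw [Nat.card_zpowers, hy])
  obtain ⟨c, hc⟩ := h1.nonempty_fixed_point_of_prime_not_dvd_card (G ⧸ H) hH
  obtain ⟨g, rfl⟩ := QuotientGroup.mk_surjective c
  have h2 : ((y * g : G) : G ⧸ H) = g := hc ⟨y, mem_zpowers y⟩
  refine ⟨g, ?_⟩
  have := QuotientGroup.eq.1 h2.symm
  rwa [← mul_assoc] at this

theorem fp_tits [IsSimpleGroup G] (hG : ¬ IsMulCommutative G) (hN : IsNGroup G)
    (h2 : ∀ H : Subgroup G, H.index ≠ 2) {S V : Subgroup G} {z : G} (h : TitsShape S V z) :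
    FP G := by
  have := tg h
  have hz : Pnt z := ⟨V, S, h.toEnd⟩
  have hD : 𝐃(z) ≤ Up z := by
    by_contra e
    obtain ⟨y, h1, h3⟩ := SetLike.not_le_iff_exists.1 e
    obtain ⟨H, hH⟩ := exists_index_two hz h1 h3
    exact h2 H hH
  have hDc : Nat.card 𝐃(z) = 32 := by rw [le_antisymm hD (U_le_D hz), card_U hz]
  have hc : Nat.card G = 17971200 := by rw [card_G hz, hDc]
  have hCz : Nat.card 𝐂₁(z) = 10240 := by rw [card_C hz, hDc]
  have sq : ∀ w : G, Pnt w → w ^ 2 = 1 := fun w hw => by rw [pow_two]; exact U_sq hw hw.mem_Up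
  refine fp_tits_abs hG hN hc ?_ ?_ ?_ ?_
  · intro x j hx hj hjx
    have h1 := h.ng.chr (zpowers j) (isP_zp hj) (fun e => by
      rw [zpowers_eq_bot.1 e, orderOf_one] at hj; omega)
    have hxN : x ∈ normalizer ((zpowers j : Subgroup G) : Set G) :=
      centralizer_le_normalizer _ (cent_zpowers j ▸ mem_centralizer_singleton_iff.2
        (mem_centralizer_singleton_iff.1 hjx).symm)
    set Q := pCoreOf 2 (normalizer ((zpowers j : Subgroup G) : Set G)) with hQ
    have hQ2 : IsPGroup 2 Q := H1.isPGroup_pCoreOf _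
    obtain ⟨a, ha⟩ := IsPGroup.iff_card.1 hQ2
    obtain ⟨b, hb⟩ := IsPGroup.iff_card.1 (hQ2.to_le (inf_le_left : Q ⊓ centralizer {x} ≤ _))
    have h3 := card_modEq_of_norm (by norm_num : Nat.Prime 13) (hx ▸ pow_orderOf_eq_one x) (Q := Q)
      (H1.le_normalizer_pCoreOf _ hxN)
    have h4 : b ≤ a := by
      rw [← Nat.pow_dvd_pow_iff_le_right one_lt_two, ← ha, ← hb]
      exact card_dvd_of_le inf_le_left
    have h5 : a = b := by
      rw [ha, hb] at h3
      unfold Nat.ModEq at h3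
      have h6 := pp_bound Nat.prime_two (ha ▸ (card_subgroup_dvd_card _).trans hc.dvd)
      have h7 : a ≤ 11 := by omega
      interval_cases a <;> interval_cases b <;> first | rfl | omega
    have h6 := eq_of_le_of_card_ge (inf_le_left : Q ⊓ centralizer {x} ≤ _) (by rw [ha, hb, h5])
    have h7 : Q ≤ centralizer {x} := h6 ▸ inf_le_right
    have h8 : x ∈ Q := h1 ⟨hxN, mem_centralizer_iff.2 fun y hy =>
      mem_centralizer_singleton_iff.1 (h7 hy)⟩
    have h9 := H1.orderOf_dvd_card_of_mem h8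
    rw [hx, ha] at h9
    have := (by norm_num : Nat.Prime 13).dvd_of_dvd_pow h9
    omega
  · intro y hy
    have h1 := orderOf_pow_orderOf_div (orderOf_pos y).ne' hy
    have h3 := (𝐂₁(z) : Subgroup G).card_mul_index
    rw [hCz, hc] at h3
    obtain ⟨g, hg⟩ := exists_conj_mem Nat.prime_two (H := 𝐂₁(z)) (by omega) h1
    have h4 := orderOf_dvd_of_pow_eq_one (pow80 hz hg)
    have h5 : orderOf (g⁻¹ * y ^ (orderOf y / 2 ^ (9 + 1)) * g) = 2 ^ (9 + 1) :=
      (SemiconjBy.orderOf_eq g (by simp [SemiconjBy, mul_assoc])).trans h1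
    rw [h5] at h4
    norm_num at h4
  · rw [← card_pts hz]
    exact Set.ncard_le_ncard (s := {w : G | Pnt w}) sq
  · obtain ⟨x, h1, h3, h4, -⟩ := exists_x h
    have hX : X5 z x := ⟨hz, h1, h3, h4⟩
    have hcm : Commute z x := (mem_centralizer_singleton_iff.1 h1).symm
    have e5 : (z * x) ^ 5 = z := by
      rw [hcm.mul_pow, h3, mul_one, show 5 = 2 * 2 + 1 from rfl, pow_succ, pow_mul, sq z hz]; simp
    have e6 : (z * x) ^ 6 = x := by
      rw [hcm.mul_pow, pow_of_dvd (sq z hz) (by norm_num), pow_succ, h3]; simp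
    refine ⟨z * x, by rw [show 10 = 5 * 2 from rfl, pow_mul, e5, sq z hz], ?_⟩
    set K := centralizer ({z * x} : Set G) with hK
    have k0 : ∀ g ∈ K, ∀ k : ℕ, g * (z * x) ^ k = (z * x) ^ k * g := fun g hg k =>
      ((show Commute g (z * x) from mem_centralizer_singleton_iff.1 hg).pow_right k).eq
    have k1 : K ≤ 𝐂₁(z) := fun g hg => mem_centralizer_singleton_iff.2 (e5 ▸ k0 g hg 5)
    have k2 : 𝐐(z) ⊓ K ≤ zpowers z := fun g hg => by
      have : x ∈ 𝐂₁(g) := mem_centralizer_singleton_iff.2 (e6 ▸ k0 g hg.2 6).symm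
      exact hX.fix (hD (hX.memD hg.1 this)) this
    have k3 : Nat.card (𝐐(z) ⊓ K : Subgroup G) ≤ 2 := by
      refine (card_le_of_le k2).trans ?_
      rw [Nat.card_zpowers]
      exact orderOf_le_of_pow_eq_one two_pos (sq z hz)
    have k4 : (𝐐(z)).relIndex K ≤ 20 :=
      (TG.idx z hz) ▸ relIndex_le_of_le_right k1 (by rw [TG.idx z hz]; norm_num)
    rw [← H3.relIndex_mul_card_inf 𝐐(z) K]
    exact (Nat.mul_le_mul k4 k3).trans (by norm_num)

end H99.FN
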